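import Mathlib
import Cfsg.Agent.Lib.Helper5.SLGen

set_option autoImplicit false

/-!
# Normal subgroups of the special linear group

A normal subgroup of `SL_n(F)` (`n ≥ 2`) not contained in the centre contains all `r`-th powers,
where `r` is the characteristic.  (Iwasawa's argument; no perfectness is needed.)
-/

namespace Cfsg.Agent.Lib.Helper43.PSLBal

open Matrix MulAction Matrix.SpecialLinearGroup
open scoped LinearAlgebra.Projectivization Pointwise commutatorElement

variable {F : Type*} [Field F] {n : ℕ}

/-- The Iwasawa structure of `SL_n(F)` acting on the projective space. -/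
noncomputable def slIwasawa (hn : 2 ≤ n) :
    MulAction.IwasawaStructure (Matrix.SpecialLinearGroup (Fin n) F) (ℙ F (Fin n → F)) where
  T := fun p => lineStab (F := F) (ι := Fin n) p.submodule
  is_comm := fun p => by
    rw [← Projectivization.mk_rep p, Projectivization.submodule_mk]
    exact lineStab_isMulCommutative_of_span p.rep p.rep_nonzero
  is_conj := fun g p => by
    rw [PSL.smul_submodule, Matrix.SpecialLinearGroup.lineStab_smul]
  is_generator := by
    haveI : Nontrivial (Fin n) := Fin.nontrivial_iff_two_le.mpr hn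
    apply Cfsg.Agent.Lib.Helper5.eq_top_of_transvection_mem
    intro i j hij c
    have hmem := SL2Gen.transvection_mem_lineStab (F := F) hij c
    rw [← Projectivization.submodule_mk (K := F) _ (Pi.single_ne_zero_iff.2 one_ne_zero)] at hmem
    exact Subgroup.mem_iSup_of_mem _ hmem

theorem pow_char_mem_of_normal_sl (hn : 2 ≤ n) (r : ℕ) [CharP F r]
    (N : Subgroup (Matrix.SpecialLinearGroup (Fin n) F)) [N.Normal]
    (hN : ¬ N ≤ Subgroup.center (Matrix.SpecialLinearGroup (Fin n) F))
    (s : Matrix.SpecialLinearGroup (Fin n) F) : s ^ r ∈ N := by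
  haveI : Nontrivial (Fin n) := Fin.nontrivial_iff_two_le.mpr hn
  have hfix : fixedPoints N (ℙ F (Fin n → F)) ≠ Set.univ := by
    intro hfix
    apply hN
    intro g hg
    rw [← Projectivization.SL_mulAction_ker (ι := Fin n) (K := F), MonoidHom.mem_ker]
    ext p
    have hp : p ∈ fixedPoints N (ℙ F (Fin n → F)) := hfix ▸ Set.mem_univ p
    exact hp ⟨g, hg⟩
  have h1 := (slIwasawa (F := F) hn).commutator_le N hfix
  have hcomm : ∀ a b : Matrix.SpecialLinearGroup (Fin n) F ⧸ N, a * b = b * a := by
    intro a b
    obtain ⟨s, rfl⟩ := QuotientGroup.mk_surjective a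
    obtain ⟨t, rfl⟩ := QuotientGroup.mk_surjective b
    rw [← QuotientGroup.mk_mul, ← QuotientGroup.mk_mul, QuotientGroup.eq]
    apply h1
    have : (s * t)⁻¹ * (t * s) = ⁅t⁻¹, s⁻¹⁆ := by
      rw [commutatorElement_def]
      group
    rw [this, commutator_def]
    exact Subgroup.commutator_mem_commutator (Subgroup.mem_top _) (Subgroup.mem_top _)
  have key : ∀ s : Matrix.SpecialLinearGroup (Fin n) F,
      (QuotientGroup.mk s : Matrix.SpecialLinearGroup (Fin n) F ⧸ N) ^ r = 1 := by
    intro s
    refine Cfsg.Agent.Lib.Helper5.transvection_induction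
      (fun s => (QuotientGroup.mk s : Matrix.SpecialLinearGroup (Fin n) F ⧸ N) ^ r = 1) ?_ ?_ s
    · intro i j hij c
      have hpow : ∀ k : ℕ, (transvection hij c) ^ k = transvection hij ((k : F) * c) := by
        intro k
        induction k with
        | zero => rw [pow_zero, Nat.cast_zero, zero_mul, transvection_coeff_zero]
        | succ k ih =>
          rw [pow_succ, ih, ← transvection_add, Nat.cast_succ, add_mul, one_mul]
      show (QuotientGroup.mk (transvection hij c) :
        Matrix.SpecialLinearGroup (Fin n) F ⧸ N) ^ r = 1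
      rw [← QuotientGroup.mk_pow, hpow, CharP.cast_eq_zero F r, zero_mul, transvection_coeff_zero]
      rfl
    · intro A B hA hB
      show (QuotientGroup.mk (A * B) : Matrix.SpecialLinearGroup (Fin n) F ⧸ N) ^ r = 1
      rw [QuotientGroup.mk_mul, (show Commute _ _ from hcomm _ _).mul_pow, hA, hB, one_mul]
  have := key s
  rwa [← QuotientGroup.mk_pow, QuotientGroup.eq_one_iff] at this

end Cfsg.Agent.Lib.Helper43.PSLBal
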