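import Mathlib
import Cfsg.Agent.Lib.Helper43.PSLBal.SLNormal
import Cfsg.Agent.Lib.Helper43.FieldAut.Main
import Cfsg.Agent.Lib.Helper43.AutPSLn.Final
import Cfsg.Agent.Lib.Helper43.AutSp4.Balance2

set_option autoImplicit false

/-!
# Local balance for `PSL_n(q)`: field automorphisms
-/

namespace Cfsg.Agent.Lib.Helper43.PSLBal

open Matrix Cfsg.Agent.Lib.Helper43.AutPSLn Cfsg.Agent.Lib.Helper43.FieldAut
  Cfsg.Agent.Lib.Helper43.AutSp4

variable {n : ℕ} {F : Type*} [Field F] {F₀ : Type*} [Field F₀]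

local notation "Mx" => Matrix (Fin n) (Fin n) F
local notation "SLn" => Matrix.SpecialLinearGroup (Fin n) F
local notation "PSLn" => Matrix.ProjectiveSpecialLinearGroup (Fin n) F
local notation "GLn" => GL (Fin n) F
local notation "SL₀" => Matrix.SpecialLinearGroup (Fin n) F₀

theorem pmn_eq_one_of_scalar (s : SLn) {c : F} (h : (s : Mx) = c • (1 : Mx)) : pmn s = 1 := by
  have hc : c ^ n = 1 := by
    have h1 := s.2
    rw [h, Matrix.det_smul, Matrix.det_one, mul_one, Fintype.card_fin] at h1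
    exact h1
  have h2 : pmn (1 : SLn) = pmn s := by
    rw [pmn_eq_iff]
    exact ⟨c, hc, by rw [h]; rfl⟩
  rw [← h2, map_one]

/-- `PSL_n` has trivial centre. -/
theorem conj_injective_psl (hn : 2 ≤ n) :
    Function.Injective (MulAut.conj : PSLn →* MulAut PSLn) := by
  rw [injective_iff_map_eq_one]
  intro k hk
  obtain ⟨s, rfl⟩ := pmn_surjective k
  rw [← cG_toGL] at hk
  obtain ⟨c, -, hc⟩ := cG_eq_one hn _ hk
  exact pmn_eq_one_of_scalar s hc

theorem finite_psl [Finite F] : Finite PSLn := by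
  haveI : Finite SLn := Finite.of_injective (fun s : SLn => (s : Mx)) Subtype.val_injective
  exact Finite.of_surjective pmn pmn_surjective

theorem finite_aut_psl [Finite F] : Finite (MulAut PSLn) := by
  haveI := finite_psl (n := n) (F := F)
  exact Finite.of_injective (fun e : MulAut PSLn => (e : PSLn → PSLn)) DFunLike.coe_injective

/-! ### The special linear group of a subfield -/

/-- The special linear group over a subfield, acting on `PSL_n(F)` by conjugation. -/
noncomputable def thetaSL (j : F₀ →+* F) :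
    Matrix.SpecialLinearGroup (Fin n) F₀ →*
      MulAut (Matrix.ProjectiveSpecialLinearGroup (Fin n) F) :=
  (theta j).comp Matrix.SpecialLinearGroup.toGL

theorem thetaSL_apply (j : F₀ →+* F) (s : SL₀) :
    (thetaSL j s : MulAut PSLn) = theta j (Matrix.SpecialLinearGroup.toGL s) := rfl

theorem glmap_toGL (j : F₀ →+* F) (s : SL₀) :
    Matrix.GeneralLinearGroup.map j (Matrix.SpecialLinearGroup.toGL s) =
      Matrix.SpecialLinearGroup.toGL (Matrix.SpecialLinearGroup.map j s) := by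
  apply Units.ext
  rfl

theorem thetaSL_inner (j : F₀ →+* F) (s : SL₀) :
    (thetaSL j s : MulAut PSLn) = MulAut.conj (pmn (Matrix.SpecialLinearGroup.map j s)) := by
  rw [thetaSL_apply, theta_apply, glmap_toGL, cG_toGL]

theorem thetaSL_comm (τ : RingAut F) (j : F₀ →+* F) (hj : IsFixEmb τ j) (s : SL₀) :
    (fG τ : MulAut PSLn) * thetaSL j s = thetaSL j s * fG τ := by
  rw [thetaSL_apply, theta_apply, fG_cG, glmap_map_of_fix τ j hj]

/-- Conjugation by a matrix of determinant one fixed by `τ` comes from the fixed field. -/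
theorem conj_mem_thetaSL (τ : RingAut F) (j : F₀ →+* F) (hj : IsFixEmb τ j) (s : SLn)
    (hs : fAutN τ s = s) : ∃ s₀ : SL₀, (thetaSL j s₀ : MulAut PSLn) = MulAut.conj (pmn s) := by
  have h1 : Matrix.GeneralLinearGroup.map (τ : F →+* F) (Matrix.SpecialLinearGroup.toGL s) =
      Matrix.SpecialLinearGroup.toGL s := by
    apply Units.ext
    ext a b
    have := congrArg (fun u : SLn => (u : Mx) a b) hs
    exact this
  obtain ⟨k, hk⟩ := exists_map_of_fixed τ j hj _ h1
  have hk' : (k : Matrix (Fin n) (Fin n) F₀).map j = (s : Mx) := by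
    have := congrArg (fun u : GLn => (u : Mx)) hk
    exact this
  have hdet : (k : Matrix (Fin n) (Fin n) F₀).det = 1 := by
    apply j.injective
    rw [map_one, RingHom.map_det, RingHom.mapMatrix_apply, hk']
    exact s.2
  obtain ⟨s₀, hs₀⟩ : ∃ s₀ : SL₀, (s₀ : Matrix (Fin n) (Fin n) F₀) = k := ⟨⟨_, hdet⟩, rfl⟩
  refine ⟨s₀, ?_⟩
  have e : Matrix.SpecialLinearGroup.toGL s₀ = k := Units.ext hs₀
  rw [thetaSL_apply, theta_apply, ← cG_toGL, e, hk]

/-! ### Automorphisms fixing the root elements over the fixed field -/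

theorem cG_eq_one_of_fix_X (hn : 2 ≤ n) (τ : RingAut F) (g : GLn) (σ : RingAut F)
    (hc : ∀ (i j : Fin n), i ≠ j → ∀ c : F, τ c = c →
      (cG g * fG σ : MulAut PSLn) (pmn (X i j c)) = pmn (X i j c)) :
    (cG g : MulAut PSLn) = 1 ∧ ∀ c : F, τ c = c → σ c = c := by
  have key : ∀ i j : Fin n, i ≠ j → ∀ c : F, τ c = c →
      (g : Mx) * Matrix.single i j (σ c) = Matrix.single i j c * (g : Mx) := by
    intro i j hij c hcτ
    apply glAut_X_eq g hij
    rw [← cG_fG_X g σ hij c]
    exact hc i j hij c hcτ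
  have e : ∀ (i j : Fin n) (s : F), (Matrix.single i j s : Mx) = s • Matrix.single i j 1 := by
    intro i j s
    rw [Matrix.smul_single, smul_eq_mul, mul_one]
  have h1 := scalar_of_comm hn g id rfl (fun i j hij t => by
    have h2 := key i j hij 1 (map_one τ)
    rw [map_one] at h2
    rw [id, e i j t, Matrix.mul_smul, h2, Matrix.smul_mul])
  obtain ⟨⟨c₀, hc₀, hg⟩, -⟩ := h1
  refine ⟨cG_of_scalar g hg, fun c hcτ => ?_⟩
  have h01 : (⟨0, by omega⟩ : Fin n) ≠ ⟨1, by omega⟩ := by
    intro h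
    have := congrArg Fin.val h
    simp at this
  have h2 := key ⟨0, by omega⟩ ⟨1, by omega⟩ h01 c hcτ
  rw [hg, Matrix.smul_mul, Matrix.one_mul, Matrix.mul_smul, Matrix.mul_one] at h2
  have h3 := congrFun (congrFun h2 ⟨0, by omega⟩) ⟨1, by omega⟩
  rw [Matrix.smul_apply, Matrix.smul_apply, Matrix.single_apply_same, Matrix.single_apply_same,
    smul_eq_mul, smul_eq_mul] at h3
  exact mul_left_cancel₀ hc₀ h3

theorem comp_single (σ : RingAut F) (i : Fin n) (t : F) :
    (σ ∘ (Pi.single i t : Fin n → F)) = Pi.single i (σ t) := by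
  funext k
  by_cases hk : k = i
  · rw [hk, Function.comp_apply, Pi.single_eq_same, Pi.single_eq_same]
  · rw [Function.comp_apply, Pi.single_eq_of_ne hk, Pi.single_eq_of_ne hk, map_zero]

/-- A graph-type automorphism does not fix all root elements, `n ≥ 3`. -/
theorem not_fix_X_graph (hn : 3 ≤ n) (g : GLn) (σ : RingAut F)
    (hc : ∀ (i j : Fin n), i ≠ j →
      (cG g * fG σ * iG : MulAut PSLn) (pmn (X i j 1)) = pmn (X i j 1)) : False := by
  let i0 : Fin n := ⟨0, by omega⟩
  let i1 : Fin n := ⟨1, by omega⟩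
  let i2 : Fin n := ⟨2, by omega⟩
  have h10 : i1 ≠ i0 := by
    intro h'
    have := congrArg Fin.val h'
    simp [i0, i1] at this
  have h20 : i2 ≠ i0 := by
    intro h'
    have := congrArg Fin.val h'
    simp [i0, i2] at this
  have h12 : i1 ≠ i2 := by
    intro h'
    have := congrArg Fin.val h'
    simp [i1, i2] at this
  have key : ∀ i j : Fin n, i ≠ j →
      Par ((g : Mx) *ᵥ (-(Pi.single j 1 : Fin n → F))) (Pi.single i 1) := by
    intro i j hij
    have h1 := hc i j hij
    have hd : (Pi.single j (1 : F) : Fin n → F) ⬝ᵥ (Pi.single i 1 : Fin n → F) = 0 := X_dot hij 1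
    have hd2 : (Pi.single i (1 : F) : Fin n → F) ⬝ᵥ (-(Pi.single j 1 : Fin n → F)) = 0 := by
      rw [dotProduct_neg, dotProduct_comm, hd, neg_zero]
    have hvd : Vd (-(Pi.single j 1 : Fin n → F)) (Pi.single i 1) :=
      ⟨neg_ne_zero.mpr (single_ne_zero' j), single_ne_zero' i, hd2⟩
    have hvd' : Vd (Pi.single i 1 : Fin n → F) (Pi.single j 1) :=
      ⟨single_ne_zero' i, single_ne_zero' j, hd⟩
    have e1 : (σ ∘ (-(Pi.single j 1 : Fin n → F))) = -(Pi.single j 1 : Fin n → F) := by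
      funext k
      rw [Function.comp_apply, Pi.neg_apply, map_neg]
      congr 1
      have := congrFun (comp_single σ j (1 : F)) k
      rw [map_one] at this
      exact this
    have e2 : (σ ∘ (Pi.single i 1 : Fin n → F)) = Pi.single i 1 := by
      rw [comp_single, map_one]
    unfold X at h1
    rw [MulAut.mul_apply, MulAut.mul_apply, iG_pmn, itAut_tv hd, fG_pmn, fAutN_tv σ hd2, e1, e2,
      cG_pmn, glAut_tv g hd2] at h1
    exact rigid_vec hn (vd_gl g hvd) hvd' h1
  have ha := key i1 i0 h10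
  have hb := key i2 i0 h20
  obtain ⟨c, -, hcc⟩ := ha.symm.trans hb
  have := congrFun hcc i2
  rw [Pi.single_eq_same, Pi.smul_apply, Pi.single_eq_of_ne (Ne.symm h12), smul_zero] at this
  exact one_ne_zero this

/-- An automorphism fixing the root elements `x_{ij}(1)` is induced by a semilinear map. -/
theorem semilinear_of_fix_X [Fintype F] {p' f : ℕ} [Fact p'.Prime] (hf : 1 ≤ f)
    (hF : Fintype.card F = p' ^ f) (hn : 2 ≤ n) (a : MulAut PSLn)
    (ha : ∀ i j : Fin n, i ≠ j → a (pmn (X i j 1)) = pmn (X i j 1)) :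
    ∃ (g : GLn) (σ : RingAut F), a = cG g * fG σ := by
  rcases Nat.lt_or_ge n 3 with h | h
  · obtain rfl : n = 2 := by omega
    exact aut_decomp_two hf hF a
  · obtain ⟨g, σ, e, rfl⟩ := aut_decomp_all hf hF hn a
    rcases zmod2_cases e with rfl | rfl
    · exact ⟨g, σ, by rw [jG_zero, mul_one]⟩
    · exfalso
      rw [jG_one] at ha
      exact not_fix_X_graph h g σ ha

/-! ### Elements of order `p` over the fixed field -/

theorem pmn_X_ne_one (hn : 2 ≤ n) {i j : Fin n} (hij : i ≠ j) :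
    pmn (X i j (1 : F)) ≠ 1 := by
  intro h
  have h1 : pmn (1 : SLn) = pmn (X i j (1 : F)) := by rw [h, map_one]
  rw [pmn_eq_iff] at h1
  obtain ⟨c, -, hc⟩ := h1
  have h2 := congrFun (congrFun hc i) j
  rw [X_coe_apply hij, Matrix.smul_apply] at h2
  have h3 : ((1 : SLn) : Mx) i j = 0 := by
    show (1 : Mx) i j = 0
    exact Matrix.one_apply_ne hij
  rw [h3, smul_zero] at h2
  exact one_ne_zero h2

/-- If `p` divides the number of fixed points of the field automorphism, the special linear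
group of the fixed field contains an element of order divisible by `p` (acting on `PSL`). -/
theorem exists_order_dvd_sl [Finite F] [Finite F₀] (hn : 2 ≤ n) (τ : RingAut F) (j : F₀ →+* F)
    (hj : IsFixEmb τ j) (p : ℕ) [Fact p.Prime]
    (hdiv : p ∣ Nat.card ↥(MonoidHom.eqLocus (fG τ : MulAut PSLn).toMonoidHom
      (MonoidHom.id PSLn))) :
    ∃ s₀ : SL₀, p ∣ orderOf (thetaSL j s₀ : MulAut PSLn) := by
  classical
  haveI := finite_psl (n := n) (F := F)
  have hp : p.Prime := Fact.out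
  by_cases hq : p ∣ Nat.card F₀ˣ
  · obtain ⟨ζ, hζ⟩ := exists_prime_orderOf_dvd_card' p hq
    by_cases hcase : n = 2 ∧ p = 2
    · obtain ⟨rfl, rfl⟩ := hcase
      have hdet : (!![0, 1; -1, 0] : Matrix (Fin 2) (Fin 2) F₀).det = 1 := by
        rw [Matrix.det_fin_two_of]
        ring
      obtain ⟨s₀, hs₀⟩ : ∃ s₀ : Matrix.SpecialLinearGroup (Fin 2) F₀,
          (s₀ : Matrix (Fin 2) (Fin 2) F₀) = !![0, 1; -1, 0] := ⟨⟨_, hdet⟩, rfl⟩
      refine ⟨s₀, ?_⟩
      have hne : (thetaSL j s₀ : MulAut (Matrix.ProjectiveSpecialLinearGroup (Fin 2) F)) ≠ 1 := by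
        intro h
        have hk : Matrix.SpecialLinearGroup.toGL s₀ ∈
            (theta j : GL (Fin 2) F₀ →* MulAut (Matrix.ProjectiveSpecialLinearGroup (Fin 2) F)).ker :=
          h
        rw [theta_ker hn j, Matrix.GeneralLinearGroup.mem_center_iff_val_mem_range_scalar] at hk
        obtain ⟨c, hc⟩ := hk
        have h1 := congrFun (congrFun hc 0) 1
        have h2 : ((Matrix.SpecialLinearGroup.toGL s₀ : GL (Fin 2) F₀) :
            Matrix (Fin 2) (Fin 2) F₀) 0 1 = 1 := by
          show (s₀ : Matrix (Fin 2) (Fin 2) F₀) 0 1 = 1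
          rw [hs₀]
          rfl
        rw [h2, Matrix.scalar_apply, Matrix.diagonal_apply_ne _ (by decide)] at h1
        exact zero_ne_one h1
      have hsq : (thetaSL j s₀ : MulAut (Matrix.ProjectiveSpecialLinearGroup (Fin 2) F)) ^ 2 =
          1 := by
        rw [← map_pow]
        have hk : Matrix.SpecialLinearGroup.toGL (s₀ ^ 2) ∈
            (theta j : GL (Fin 2) F₀ →* MulAut (Matrix.ProjectiveSpecialLinearGroup (Fin 2) F)).ker := by
          rw [theta_ker hn j, Matrix.GeneralLinearGroup.mem_center_iff_val_mem_range_scalar]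
          refine ⟨-1, ?_⟩
          show Matrix.scalar (Fin 2) (-1 : F₀) = ((s₀ ^ 2 : Matrix.SpecialLinearGroup (Fin 2) F₀) :
            Matrix (Fin 2) (Fin 2) F₀)
          rw [pow_two, Matrix.SpecialLinearGroup.coe_mul, hs₀]
          ext a b
          fin_cases a <;> fin_cases b <;> simp [Matrix.mul_apply, Fin.sum_univ_two]
        exact hk
      rw [orderOf_eq_prime hsq hne]
    · have hn' : 3 ≤ n ∨ p ≠ 2 := by
        by_contra hcon
        push Not at hcon
        exact hcase ⟨by omega, hcon.2⟩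
      obtain ⟨i0, hi0⟩ : ∃ i0 : Fin n, i0.val = 0 := ⟨⟨0, by omega⟩, rfl⟩
      obtain ⟨i1, hi1⟩ : ∃ i1 : Fin n, i1.val = 1 := ⟨⟨1, by omega⟩, rfl⟩
      have h01 : i0 ≠ i1 := by
        intro h'
        have := congrArg Fin.val h'
        omega
      obtain ⟨d, hd⟩ : ∃ d : Fin n → F₀ˣ, d = Pi.mulSingle i0 ζ * Pi.mulSingle i1 ζ⁻¹ := ⟨_, rfl⟩
      have hd0 : d i0 = ζ := by
        rw [hd, Pi.mul_apply, Pi.mulSingle_eq_same, Pi.mulSingle_eq_of_ne h01, mul_one]
      have hd1 : d i1 = ζ⁻¹ := by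
        rw [hd, Pi.mul_apply, Pi.mulSingle_eq_same, Pi.mulSingle_eq_of_ne (Ne.symm h01), one_mul]
      have hprod : ∏ i, d i = 1 := by
        rw [hd]
        simp only [Pi.mul_apply]
        rw [Finset.prod_mul_distrib, prod_mulSingle, prod_mulSingle, mul_inv_cancel]
      have hdet : (diagGL d : Matrix (Fin n) (Fin n) F₀).det = 1 := by
        rw [det_diagGL, hprod]
        rfl
      obtain ⟨s₀, hs₀⟩ : ∃ s₀ : SL₀, (s₀ : Matrix (Fin n) (Fin n) F₀) = diagGL d :=
        ⟨⟨_, hdet⟩, rfl⟩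
      have e : Matrix.SpecialLinearGroup.toGL s₀ = diagHom d := Units.ext hs₀
      refine ⟨s₀, ?_⟩
      have key : ∀ m : ℕ, (thetaSL j s₀ : MulAut PSLn) ^ m = 1 → p ∣ m := by
        intro m hm
        rw [thetaSL_apply, e, ← map_pow, ← map_pow] at hm
        have hker : diagHom (d ^ m) ∈ (theta j : GL (Fin n) F₀ →* MulAut PSLn).ker := hm
        rw [theta_ker hn j, Matrix.GeneralLinearGroup.mem_center_iff_val_mem_range_scalar] at hker
        obtain ⟨c, hc⟩ := hker
        have hent : ∀ i : Fin n, c = ((d i ^ m : F₀ˣ) : F₀) := by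
          intro i
          have h1 := congrFun (congrFun hc i) i
          rw [Matrix.scalar_apply, Matrix.diagonal_apply_eq, diagHom_apply, diagGL_coe,
            Matrix.diagonal_apply_eq] at h1
          exact h1
        have h0 := hent i0
        have h1 := hent i1
        rw [hd0] at h0
        rw [hd1] at h1
        have h2 : ζ ^ m = ζ⁻¹ ^ m := Units.ext (h0.symm.trans h1)
        rcases hn' with h3 | h3
        · obtain ⟨i2, hi2⟩ : ∃ i2 : Fin n, i2.val = 2 := ⟨⟨2, by omega⟩, rfl⟩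
          have hd2 : d i2 = 1 := by
            rw [hd, Pi.mul_apply, Pi.mulSingle_eq_of_ne, Pi.mulSingle_eq_of_ne, one_mul]
            · intro h'
              have := congrArg Fin.val h'
              omega
            · intro h'
              have := congrArg Fin.val h'
              omega
          have h4 := hent i2
          rw [hd2, one_pow] at h4
          have h5 : ζ ^ m = 1 := Units.ext (h0.symm.trans h4)
          rw [← hζ]
          exact orderOf_dvd_of_pow_eq_one h5
        · have h5 : ζ ^ (2 * m) = 1 := by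
            rw [two_mul, pow_add]
            nth_rewrite 2 [h2]
            rw [← mul_pow, mul_inv_cancel, one_pow]
          have h6 : p ∣ 2 * m := by
            rw [← hζ]
            exact orderOf_dvd_of_pow_eq_one h5
          rcases (Nat.Prime.dvd_mul hp).mp h6 with h7 | h7
          · exact absurd ((Nat.prime_dvd_prime_iff_eq hp Nat.prime_two).mp h7) h3
          · exact h7
      exact key _ (pow_orderOf_eq_one _)
  · obtain ⟨y, hy⟩ := exists_prime_orderOf_dvd_card' p hdiv
    obtain ⟨s, hs⟩ := pmn_surjective (y : PSLn)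
    have hfix : fG τ (y : PSLn) = (y : PSLn) := y.2
    have hmem : (MulAut.conj (y : PSLn) : MulAut PSLn) ∈
        (cG : GLn →* MulAut PSLn).range ⊓ Subgroup.centralizer {(fG τ : MulAut PSLn)} := by
      refine ⟨⟨Matrix.SpecialLinearGroup.toGL s, by rw [cG_toGL, hs]⟩, ?_⟩
      show MulAut.conj (y : PSLn) ∈ Subgroup.centralizer {(fG τ : MulAut PSLn)}
      rw [Subgroup.mem_centralizer_iff]
      intro z hz
      rw [Set.mem_singleton_iff] at hz
      subst hz
      have h1 := conj_aut (fG τ : MulAut PSLn) (y : PSLn)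
      rw [hfix, mul_inv_eq_iff_eq_mul] at h1
      exact h1
    rw [inf_centralizer_fG hn τ j hj] at hmem
    obtain ⟨k, hk⟩ := hmem
    have hord : orderOf (theta j k : MulAut PSLn) = p := by
      rw [hk, orderOf_injective _ (conj_injective_psl hn), Subgroup.orderOf_coe, hy]
    obtain ⟨q1, hq1⟩ : ∃ q1 : ℕ, q1 = Nat.card F₀ˣ := ⟨_, rfl⟩
    rw [← hq1] at hq
    have hdet : ((k ^ q1 : GL (Fin n) F₀) : Matrix (Fin n) (Fin n) F₀).det = 1 := by
      have h1 : Matrix.GeneralLinearGroup.det (k ^ q1) = 1 := by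
        rw [map_pow, hq1]
        exact pow_card_eq_one'
      exact congrArg Units.val h1
    obtain ⟨s₀, hs₀⟩ : ∃ s₀ : SL₀, (s₀ : Matrix (Fin n) (Fin n) F₀) = (k ^ q1 : GL (Fin n) F₀) :=
      ⟨⟨_, hdet⟩, rfl⟩
    refine ⟨s₀, ?_⟩
    have e : Matrix.SpecialLinearGroup.toGL s₀ = k ^ q1 := Units.ext hs₀
    rw [thetaSL_apply, e, map_pow, Nat.Coprime.orderOf_pow (by
      rw [hord]
      exact (Nat.Prime.coprime_iff_not_dvd hp).mpr hq), hord]

/-! ### The core of the centralizer of a field automorphism -/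

/-- The fixed points of the field automorphism give a normal subgroup of its centralizer. -/
theorem core_fG_backward [Finite F] (hn : 2 ≤ n) (τ : RingAut F)
    (A : Subgroup (MulAut PSLn)) (hinn : ∀ k : PSLn, MulAut.conj k ∈ A) (p : ℕ)
    (hcop : Nat.Coprime p (Nat.card ↥(MonoidHom.eqLocus (fG τ : MulAut PSLn).toMonoidHom
      (MonoidHom.id PSLn)))) :
    HasCore p (A ⊓ Subgroup.centralizer {(fG τ : MulAut PSLn)}) := by
  refine ⟨(MonoidHom.eqLocus (fG τ : MulAut PSLn).toMonoidHom (MonoidHom.id PSLn)).map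
    MulAut.conj, ?_, ?_, ?_, ?_⟩
  · rintro _ ⟨k, hk, rfl⟩
    refine ⟨hinn k, ?_⟩
    show MulAut.conj k ∈ Subgroup.centralizer {(fG τ : MulAut PSLn)}
    rw [Subgroup.mem_centralizer_iff]
    intro z hz
    rw [Set.mem_singleton_iff] at hz
    subst hz
    have hk' : fG τ k = k := hk
    have h1 := conj_aut (fG τ : MulAut PSLn) k
    rw [hk', mul_inv_eq_iff_eq_mul] at h1
    exact h1
  · rintro d ⟨hdA, hdC⟩ _ ⟨k, hk, rfl⟩
    have hdC' : d ∈ Subgroup.centralizer {(fG τ : MulAut PSLn)} := hdC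
    rw [Subgroup.mem_centralizer_iff] at hdC'
    have hcomm := hdC' (fG τ) rfl
    have hk' : fG τ k = k := hk
    refine ⟨d k, ?_, (conj_aut d k).symm⟩
    show fG τ (d k) = d k
    have h2 := congrArg (fun a : MulAut PSLn => a k) hcomm
    simp only [MulAut.mul_apply] at h2
    rw [h2, hk']
  · rw [Subgroup.card_map_of_injective (conj_injective_psl hn)]
    exact hcop.symm
  · intro h
    obtain ⟨i0, hi0⟩ : ∃ i0 : Fin n, i0.val = 0 := ⟨⟨0, by omega⟩, rfl⟩
    obtain ⟨i1, hi1⟩ : ∃ i1 : Fin n, i1.val = 1 := ⟨⟨1, by omega⟩, rfl⟩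
    have h01 : i0 ≠ i1 := by
      intro h'
      have := congrArg Fin.val h'
      omega
    have h1 : MulAut.conj (pmn (X i0 i1 (1 : F))) ∈
        (MonoidHom.eqLocus (fG τ : MulAut PSLn).toMonoidHom (MonoidHom.id PSLn)).map
          MulAut.conj := by
      refine ⟨_, ?_, rfl⟩
      show fG τ (pmn (X i0 i1 (1 : F))) = pmn (X i0 i1 (1 : F))
      rw [fG_pmn, fAutN_X τ h01, map_one]
    rw [h, Subgroup.mem_bot] at h1
    exact pmn_X_ne_one hn h01 (conj_injective_psl hn (h1.trans (map_one _).symm))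

/-- If `p` divides the number of fixed points of the field automorphism `fG τ` of order `p`, the
centralizer of `fG τ` has no non-trivial normal `p'`-subgroup. -/
theorem core_fG_forward [Finite F] (hn : 2 ≤ n) (r : ℕ) [CharP F r] (hr : r.Prime)
    (τ : RingAut F) (A : Subgroup (MulAut PSLn)) (hinn : ∀ k : PSLn, MulAut.conj k ∈ A)
    (p : ℕ) [Fact p.Prime] (hpr : p ≠ r)
    (hΓ : ∀ a : MulAut PSLn, (∀ i j : Fin n, i ≠ j → a (pmn (X i j 1)) = pmn (X i j 1)) →
      ∃ (g : GLn) (σ : RingAut F), a = cG g * fG σ)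
    (hτ : orderOf τ = p)
    (hdiv : p ∣ Nat.card ↥(MonoidHom.eqLocus (fG τ : MulAut PSLn).toMonoidHom
      (MonoidHom.id PSLn))) :
    ¬ HasCore p (A ⊓ Subgroup.centralizer {(fG τ : MulAut PSLn)}) := by
  rintro ⟨M, hMD, hnorm, hc, hne⟩
  have hp : p.Prime := Fact.out
  haveI := finite_aut_psl (n := n) (F := F)
  obtain ⟨j, hjdef⟩ : ∃ j : ↥(fixF τ) →+* F, j = (fixF τ).subtype := ⟨_, rfl⟩
  have hj : IsFixEmb τ j := hjdef ▸ isFixEmb_fixF τ
  haveI : CharP ↥(fixF τ) r := RingHom.charP j j.injective r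
  have hcent : ∀ d : MulAut PSLn, d ∈ A ⊓ Subgroup.centralizer {(fG τ : MulAut PSLn)} ↔
      d ∈ A ∧ fG τ * d = d * fG τ := by
    intro d
    rw [Subgroup.mem_inf, Subgroup.mem_centralizer_iff]
    constructor
    · rintro ⟨h1, h2⟩
      exact ⟨h1, h2 _ rfl⟩
    · rintro ⟨h1, h2⟩
      refine ⟨h1, fun z hz => ?_⟩
      rw [Set.mem_singleton_iff] at hz
      subst hz
      exact h2
  have hθD : ∀ s : Matrix.SpecialLinearGroup (Fin n) ↥(fixF τ),
      (thetaSL j s : MulAut PSLn) ∈ A ⊓ Subgroup.centralizer {(fG τ : MulAut PSLn)} := by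
    intro s
    rw [hcent]
    refine ⟨?_, thetaSL_comm τ j hj s⟩
    rw [thetaSL_inner]
    exact hinn _
  have hM1 : ∀ a ∈ M, a ^ p = 1 → a = 1 := by
    intro a ha hap
    have h1 : orderOf a ∣ p := orderOf_dvd_of_pow_eq_one hap
    have h2 : orderOf a ∣ Nat.card M := Subgroup.orderOf_dvd_natCard M ha
    have h3 : orderOf a ∣ 1 := by
      rw [← Nat.Coprime.gcd_eq_one hc]
      exact Nat.dvd_gcd h2 h1
    exact orderOf_eq_one_iff.mp (Nat.dvd_one.mp h3)
  obtain ⟨N₀, hN₀def⟩ : ∃ N₀ : Subgroup (Matrix.SpecialLinearGroup (Fin n) ↥(fixF τ)),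
      N₀ = M.comap (thetaSL j) := ⟨_, rfl⟩
  have hN₀mem : ∀ s, s ∈ N₀ ↔ (thetaSL j s : MulAut PSLn) ∈ M := by
    intro s
    rw [hN₀def, Subgroup.mem_comap]
  haveI hN₀ : N₀.Normal := by
    constructor
    intro n₀ hn₀ g
    rw [hN₀mem] at hn₀ ⊢
    rw [map_mul, map_mul, map_inv]
    exact hnorm _ (hθD g) _ hn₀
  by_cases hcen : N₀ ≤ Subgroup.center _
  swap
  · obtain ⟨s₀, hs₀⟩ := exists_order_dvd_sl hn τ j hj p hdiv
    obtain ⟨y, hy⟩ : ∃ y : MulAut PSLn, y = thetaSL j s₀ := ⟨_, rfl⟩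
    rw [← hy] at hs₀
    have hy0 : orderOf y ≠ 0 := (orderOf_pos y).ne'
    have hz : orderOf (y ^ (orderOf y / p)) = p := orderOf_pow_orderOf_div hy0 hs₀
    have hmem : (y ^ (orderOf y / p)) ^ r ∈ M := by
      have h' := pow_char_mem_of_normal_sl hn r N₀ hcen (s₀ ^ (orderOf y / p))
      rw [hN₀mem, map_pow, map_pow, ← hy] at h'
      exact h'
    have hcop : Nat.Coprime (orderOf (y ^ (orderOf y / p))) r := by
      rw [hz]
      exact (Nat.coprime_primes hp hr).mpr hpr
    have hord : orderOf ((y ^ (orderOf y / p)) ^ r) = p := by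
      rw [Nat.Coprime.orderOf_pow hcop, hz]
    have hdvd : p ∣ Nat.card M := hord ▸ Subgroup.orderOf_dvd_natCard M hmem
    have h1 : p ∣ 1 := by
      rw [← Nat.Coprime.gcd_eq_one hc]
      exact Nat.dvd_gcd hdvd dvd_rfl
    exact hp.one_lt.ne' (Nat.dvd_one.mp h1)
  · have hB1 : ∀ s : Matrix.SpecialLinearGroup (Fin n) ↥(fixF τ),
        (thetaSL j s : MulAut PSLn) ∈ M → (thetaSL j s : MulAut PSLn) = 1 := by
      intro s hs
      have h1 : s ∈ Subgroup.center _ := hcen ((hN₀mem s).mpr hs)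
      rw [Matrix.SpecialLinearGroup.mem_center_iff] at h1
      obtain ⟨c, -, hc'⟩ := h1
      have hk : Matrix.SpecialLinearGroup.toGL s ∈
          (theta j : GL (Fin n) ↥(fixF τ) →* MulAut PSLn).ker := by
        rw [theta_ker hn j, Matrix.GeneralLinearGroup.mem_center_iff_val_mem_range_scalar]
        exact ⟨c, hc'⟩
      exact hk
    have hC1 : ∀ y ∈ M, ∀ k : PSLn, y = MulAut.conj k → y = 1 := by
      intro y hy k hk
      obtain ⟨s', rfl⟩ := pmn_surjective k
      have hyr : y ∈ (cG : GLn →* MulAut PSLn).range ⊓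
          Subgroup.centralizer {(fG τ : MulAut PSLn)} :=
        ⟨⟨Matrix.SpecialLinearGroup.toGL s', by rw [cG_toGL, hk]⟩, (hMD hy).2⟩
      rw [inf_centralizer_fG hn τ j hj] at hyr
      obtain ⟨k₀, hk₀⟩ := hyr
      have hcomm : ∀ s : Matrix.SpecialLinearGroup (Fin n) ↥(fixF τ),
          y * thetaSL j s = thetaSL j s * y := by
        intro s
        have hmem : y * (thetaSL j s * y⁻¹ * (thetaSL j s)⁻¹) ∈ M :=
          M.mul_mem hy (hnorm _ (hθD s) _ (M.inv_mem hy))
        obtain ⟨s'', hs''⟩ : ∃ s'' : Matrix.SpecialLinearGroup (Fin n) ↥(fixF τ),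
            Matrix.SpecialLinearGroup.toGL s'' =
              k₀ * Matrix.SpecialLinearGroup.toGL s * k₀⁻¹ *
                (Matrix.SpecialLinearGroup.toGL s)⁻¹ := by
          have hdet : ((k₀ * Matrix.SpecialLinearGroup.toGL s * k₀⁻¹ *
              (Matrix.SpecialLinearGroup.toGL s)⁻¹ : GL (Fin n) ↥(fixF τ)) :
              Matrix (Fin n) (Fin n) ↥(fixF τ)).det = 1 := by
            have hab : ∀ a b : (↥(fixF τ))ˣ, a * b * a⁻¹ * b⁻¹ = 1 := fun a b => by
              rw [mul_comm a b, mul_inv_cancel_right, mul_inv_cancel]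
            have h1 : Matrix.GeneralLinearGroup.det (k₀ * Matrix.SpecialLinearGroup.toGL s *
                k₀⁻¹ * (Matrix.SpecialLinearGroup.toGL s)⁻¹) = 1 := by
              rw [map_mul, map_mul, map_mul, map_inv, map_inv]
              exact hab _ _
            exact congrArg Units.val h1
          exact ⟨⟨_, hdet⟩, Units.ext rfl⟩
        have heq : y * (thetaSL j s * y⁻¹ * (thetaSL j s)⁻¹) = thetaSL j s'' := by
          rw [thetaSL_apply j s'', hs'', map_mul, map_mul, map_mul, map_inv, map_inv, hk₀,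
            ← thetaSL_apply]
          group
        rw [heq] at hmem
        have h1 := hB1 s'' hmem
        rw [← heq, ← mul_assoc, ← mul_assoc, mul_inv_eq_one, mul_inv_eq_iff_eq_mul] at h1
        exact h1
      have hfixes : ∀ (i i' : Fin n), i ≠ i' → ∀ c : F, τ c = c →
          y (pmn (X i i' c)) = pmn (X i i' c) := by
        intro i i' hii c hc'
        have hf : fAutN τ (X i i' c) = X i i' c := by rw [fAutN_X τ hii, hc']
        obtain ⟨s₀, hs₀⟩ := conj_mem_thetaSL τ j hj (X i i' c) hf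
        have h1 := hcomm s₀
        rw [hs₀] at h1
        have h2 := conj_aut y (pmn (X i i' c))
        rw [h1, mul_inv_cancel_right] at h2
        exact (conj_injective_psl hn h2).symm
      have h3 := (cG_eq_one_of_fix_X hn τ (Matrix.SpecialLinearGroup.toGL s') 1
        (fun i i' hii c hc' => by
          rw [map_one, mul_one, cG_toGL, ← hk]
          exact hfixes i i' hii c hc')).1
      rw [hk, ← cG_toGL, h3]
    apply hne
    rw [eq_bot_iff]
    intro a ha
    rw [Subgroup.mem_bot]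
    have hfix : ∀ (i i' : Fin n), i ≠ i' → ∀ c : F, τ c = c →
        a (pmn (X i i' c)) = pmn (X i i' c) := by
      intro i i' hii c hc'
      obtain ⟨t, ht⟩ : ∃ t : PSLn, t = pmn (X i i' c) := ⟨_, rfl⟩
      rw [← ht]
      have hyD : (MulAut.conj t : MulAut PSLn) ∈
          A ⊓ Subgroup.centralizer {(fG τ : MulAut PSLn)} := by
        rw [hcent]
        refine ⟨hinn t, ?_⟩
        have h1 := conj_aut (fG τ : MulAut PSLn) t
        have h2 : fG τ t = t := by rw [ht, fG_pmn, fAutN_X τ hii, hc']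
        rw [h2, mul_inv_eq_iff_eq_mul] at h1
        exact h1
      have hmem : a * (MulAut.conj t * a⁻¹ * (MulAut.conj t)⁻¹) ∈ M :=
        M.mul_mem ha (hnorm _ hyD _ (M.inv_mem ha))
      have heq : a * (MulAut.conj t * a⁻¹ * (MulAut.conj t)⁻¹) = MulAut.conj (a t * t⁻¹) := by
        rw [map_mul, ← conj_aut a t, map_inv]
        group
      have h1 := hC1 _ hmem _ heq
      rw [heq] at h1
      have h2 := conj_injective_psl hn (h1.trans (map_one _).symm)
      exact mul_inv_eq_one.mp h2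
    obtain ⟨g, σ, hgσ⟩ := hΓ a (fun i i' hii => hfix i i' hii 1 (map_one τ))
    obtain ⟨hg1, hσ⟩ := cG_eq_one_of_fix_X hn τ g σ (fun i i' hii c hc' => by
      rw [← hgσ]
      exact hfix i i' hii c hc')
    have hσz := mem_zpowers_of_fix τ σ hσ
    have hσp : σ ^ p = 1 := by
      obtain ⟨k, rfl⟩ := Subgroup.mem_zpowers_iff.mp hσz
      rw [← zpow_natCast, ← _root_.zpow_mul, mul_comm, _root_.zpow_mul, zpow_natCast, ← hτ,
        pow_orderOf_eq_one, _root_.one_zpow]
    apply hM1 a ha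
    rw [hgσ, hg1, one_mul, ← map_pow, hσp, map_one]

/-- Local balance for an element of prime order `p` in a field-automorphism coset of
`PSL_n(q)`. -/
theorem balance_field [Fintype F] (hn : 2 ≤ n) (r : ℕ) [CharP F r] (hr : r.Prime)
    (A : Subgroup (MulAut PSLn)) (hinn : ∀ k : PSLn, MulAut.conj k ∈ A) (p : ℕ) [Fact p.Prime]
    (hpr : p ≠ r) (x : MulAut PSLn) (hord : orderOf x = p)
    (g : GLn) (τ : RingAut F) (hx : x = cG g * fG τ) (hτ1 : τ ≠ 1) :
    Cfsg.pPrimeCore p ↥(A ⊓ Subgroup.centralizer {x}) ≠ ⊥ ↔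
      Nat.Coprime p (Nat.card ↥(MonoidHom.eqLocus x.toMonoidHom (MonoidHom.id PSLn))) := by
  have hp : p.Prime := Fact.out
  haveI := finite_ringAut F
  haveI : Fact r.Prime := ⟨hr⟩
  obtain ⟨f, -, hF⟩ := FiniteField.card F r
  have hΓ : ∀ a : MulAut PSLn, (∀ i j : Fin n, i ≠ j → a (pmn (X i j 1)) = pmn (X i j 1)) →
      ∃ (g : GLn) (σ : RingAut F), a = cG g * fG σ :=
    fun a ha => semilinear_of_fix_X f.pos hF hn a ha
  have hxp : (cG g * fG τ : MulAut PSLn) ^ p = 1 := by
    rw [← hx, ← hord, pow_orderOf_eq_one]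
  have hτp : τ ^ p = 1 := by
    have h1 := hxp
    rw [pow_cG_fG] at h1
    exact (cG_fG_eq_one hn _ _ h1).2
  have hτo : orderOf τ = p := orderOf_eq_prime hτp hτ1
  obtain ⟨k, hk⟩ := conj_of_pow_eq_one hn τ g (by rw [hτo]; exact hxp)
  rw [← hx] at hk
  obtain ⟨e, he⟩ : ∃ e : MulAut PSLn ≃* MulAut PSLn, e = MulAut.conj (cG k : MulAut PSLn)⁻¹ :=
    ⟨_, rfl⟩
  have hex : e x = fG τ := by
    rw [he, MulAut.conj_apply, hk]
    group
  have hinn' : ∀ t : PSLn, MulAut.conj t ∈ A.map e.toMonoidHom := by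
    intro t
    refine ⟨MulAut.conj (cG k t), hinn _, ?_⟩
    show e (MulAut.conj (cG k t)) = MulAut.conj t
    rw [he, MulAut.conj_apply, ← conj_aut]
    group
  have hcore : Cfsg.pPrimeCore p ↥(A ⊓ Subgroup.centralizer {x}) ≠ ⊥ ↔
      HasCore p (A.map e.toMonoidHom ⊓ Subgroup.centralizer {(fG τ : MulAut PSLn)}) := by
    rw [pPrimeCore_ne_bot_iff, ← hex, hasCore_map_iff]
  have hcard : Nat.card ↥(MonoidHom.eqLocus x.toMonoidHom (MonoidHom.id PSLn)) =
      Nat.card ↥(MonoidHom.eqLocus (fG τ : MulAut PSLn).toMonoidHom (MonoidHom.id PSLn)) := by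
    apply Nat.card_congr
    refine Equiv.subtypeEquiv ((cG k : MulAut PSLn)⁻¹).toEquiv (fun y => ?_)
    show x y = y ↔ fG τ ((cG k)⁻¹ y) = (cG k)⁻¹ y
    rw [hk]
    simp only [MulAut.mul_apply]
    constructor
    · intro h
      conv_rhs => rw [← h]
      rw [MulAut.inv_apply_self]
    · intro h
      rw [h, MulAut.apply_inv_self]
  rw [hcore, hcard]
  constructor
  · intro h
    rw [Nat.Prime.coprime_iff_not_dvd hp]
    intro hdiv
    exact core_fG_forward hn r hr τ _ hinn' p hpr hΓ hτo hdiv h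
  · intro hcop
    exact core_fG_backward hn τ _ hinn' p hcop

end Cfsg.Agent.Lib.Helper43.PSLBal
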