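import Mathlib
import Cfsg.Agent.Lib.Helper43.PSLBal.Field
import Cfsg.Agent.Lib.Helper43.FieldAut.GraphMain

set_option autoImplicit false

/-!
# Local balance for `PSL_n(q)`: graph-type involutions, common part

An odd-order normal subgroup `M` of the centralizer of a graph-type involution is analysed
through root elements of the isometry group of the associated form.  This file contains the
abstract data (`GData`) and the "Weyl element" contradiction.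
-/

namespace Cfsg.Agent.Lib.Helper43.PSLBal

open Matrix Cfsg.Agent.Lib.Helper43.AutPSLn Cfsg.Agent.Lib.Helper43.FieldAut
  Cfsg.Agent.Lib.Helper43.AutSp4

variable {n : ℕ} {F : Type*} [Field F]

local notation "Mx" => Matrix (Fin n) (Fin n) F
local notation "SLn" => Matrix.SpecialLinearGroup (Fin n) F
local notation "PSLn" => Matrix.ProjectiveSpecialLinearGroup (Fin n) F
local notation "GLn" => GL (Fin n) F

/-! ### The semilinear action on vectors -/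

/-- The semilinear map `y ↦ h σ(y)`. -/
def sact (h : GL (Fin n) F) (σ : RingAut F) (y : Fin n → F) : Fin n → F :=
  (h : Matrix (Fin n) (Fin n) F) *ᵥ (σ ∘ y)

/-- The inverse of `sact h σ`. -/
def sinv (h : GL (Fin n) F) (σ : RingAut F) (y : Fin n → F) : Fin n → F :=
  σ.symm ∘ (((h⁻¹ : GL (Fin n) F) : Matrix (Fin n) (Fin n) F) *ᵥ y)

theorem comp_add' (σ : RingAut F) (y z : Fin n → F) : σ ∘ (y + z) = σ ∘ y + σ ∘ z := by
  ext i
  simp

theorem comp_smul' (σ : RingAut F) (c : F) (y : Fin n → F) : σ ∘ (c • y) = σ c • (σ ∘ y) := by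
  ext i
  simp

theorem comp_dot (σ : RingAut F) (y z : Fin n → F) : (σ ∘ y) ⬝ᵥ (σ ∘ z) = σ (y ⬝ᵥ z) := by
  simp [dotProduct, map_sum]

theorem comp_mulVec (σ : RingAut F) (A : Mx) (y : Fin n → F) :
    (A.map σ) *ᵥ (σ ∘ y) = σ ∘ (A *ᵥ y) := by
  ext i
  simp [Matrix.mulVec, dotProduct, map_sum]

theorem sact_add (h : GLn) (σ : RingAut F) (y z : Fin n → F) :
    sact h σ (y + z) = sact h σ y + sact h σ z := by
  unfold sact
  rw [comp_add', Matrix.mulVec_add]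

theorem sact_smul (h : GLn) (σ : RingAut F) (c : F) (y : Fin n → F) :
    sact h σ (c • y) = σ c • sact h σ y := by
  unfold sact
  rw [comp_smul', Matrix.mulVec_smul]

theorem sact_sinv (h : GLn) (σ : RingAut F) (y : Fin n → F) : sact h σ (sinv h σ y) = y := by
  unfold sact sinv
  have e1 : (σ ∘ (σ.symm ∘ (((h⁻¹ : GLn) : Mx) *ᵥ y))) = ((h⁻¹ : GLn) : Mx) *ᵥ y := by
    ext i
    simp
  rw [e1, Matrix.mulVec_mulVec, Units.mul_inv, Matrix.one_mulVec]

theorem sinv_sact (h : GLn) (σ : RingAut F) (y : Fin n → F) : sinv h σ (sact h σ y) = y := by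
  unfold sact sinv
  rw [Matrix.mulVec_mulVec, Units.inv_mul, Matrix.one_mulVec]
  ext i
  simp

theorem sact_zero (h : GLn) (σ : RingAut F) : sact h σ (0 : Fin n → F) = 0 := by
  have := sact_smul h σ (0 : F) (0 : Fin n → F)
  rwa [zero_smul, map_zero, zero_smul] at this

theorem sact_ne_zero (h : GLn) (σ : RingAut F) {y : Fin n → F} (hy : y ≠ 0) :
    sact h σ y ≠ 0 := by
  intro h0
  apply hy
  rw [← sinv_sact h σ y, h0]
  unfold sinv
  rw [Matrix.mulVec_zero]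
  ext i
  simp

/-- Conjugating by the semilinear map: `(x E x⁻¹)(x y) = x (E y)`. -/
theorem conj_mulVec_sact (h : GLn) (σ : RingAut F) (E : SLn) (y : Fin n → F) :
    ((glAut h (fAutN σ E) : SLn) : Mx) *ᵥ sact h σ y = sact h σ ((E : Mx) *ᵥ y) := by
  unfold sact
  rw [glAut_coe, fAutN_coe, Matrix.mulVec_mulVec, Matrix.mul_assoc, Matrix.mul_assoc,
    Units.inv_mul, Matrix.mul_one, ← Matrix.mulVec_mulVec, comp_mulVec]

theorem sact_one (y : Fin n → F) : sact (1 : GLn) (1 : RingAut F) y = y := by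
  unfold sact
  rw [Units.val_one, Matrix.one_mulVec]
  rfl

/-! ### Uniqueness of the semilinear representation -/

theorem cG_fG_unique (hn : 2 ≤ n) {h h' : GLn} {σ σ' : RingAut F}
    (e : (cG h * fG σ : MulAut PSLn) = cG h' * fG σ') :
    σ = σ' ∧ ∃ c : F, c ≠ 0 ∧ (h : Mx) = c • (h' : Mx) := by
  have e1 : (cG (h'⁻¹ * h) * fG (σ * σ'⁻¹) : MulAut PSLn) = 1 := by
    rw [map_mul, map_mul, map_inv, map_inv]
    calc (cG h')⁻¹ * cG h * (fG σ * (fG σ')⁻¹)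
        = (cG h')⁻¹ * (cG h * fG σ) * (fG σ')⁻¹ := by group
      _ = 1 := by rw [e]; group
  obtain ⟨⟨c, hc, hk⟩, hσ⟩ := cG_fG_eq_one hn _ _ e1
  refine ⟨mul_inv_eq_one.mp hσ, c, hc, ?_⟩
  have e2 : (h : Mx) = (h' : Mx) * ((h'⁻¹ * h : GLn) : Mx) := by
    rw [← Units.val_mul, mul_inv_cancel_left]
  rw [e2, hk, Matrix.mul_smul, Matrix.mul_one]

/-! ### The abstract data -/

/-- The data of an odd-order normal subgroup `M` of a group `D` of automorphisms of `PSL_n`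
that contains the isometry group of the `τ`-sesquilinear form with Gram matrix `G` and whose
elements are induced by semi-similitudes of that form. -/
structure GData (G : Matrix (Fin n) (Fin n) F) (τ : RingAut F)
    (D M : Subgroup (MulAut (Matrix.ProjectiveSpecialLinearGroup (Fin n) F))) : Prop where
  le : M ≤ D
  norm : ∀ d ∈ D, ∀ a ∈ M, d * a * d⁻¹ ∈ M
  odd : (Nat.card M).Coprime 2
  iso : ∀ s : Matrix.SpecialLinearGroup (Fin n) F,
    (s : Matrix (Fin n) (Fin n) F)ᵀ * G * (s : Matrix (Fin n) (Fin n) F).map τ = G →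
      MulAut.conj (pmn s) ∈ D
  form : ∀ a ∈ M, ∃ (h : GL (Fin n) F) (σ : RingAut F), a = cG h * fG σ
  semi : ∀ (h : GL (Fin n) F) (σ : RingAut F),
    (cG h * fG σ : MulAut (Matrix.ProjectiveSpecialLinearGroup (Fin n) F)) ∈ M →
      ∃ ν : F, ν ≠ 0 ∧ (h : Matrix (Fin n) (Fin n) F)ᵀ * G *
        (h : Matrix (Fin n) (Fin n) F).map τ = ν • G.map σ

theorem pow_mem_of_normalizes {H : Type*} [Group H] (N : Subgroup H) (m e : H) (hm : m ∈ N)
    (hnorm : ∀ x ∈ N, e * x * e⁻¹ ∈ N) (k : ℕ) : ∃ m' ∈ N, (m * e) ^ k = m' * e ^ k := by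
  have hk : ∀ j : ℕ, ∀ x ∈ N, e ^ j * x * (e ^ j)⁻¹ ∈ N := by
    intro j
    induction j with
    | zero =>
      intro x hx
      simpa using hx
    | succ j ihj =>
      intro x hx
      have h1 := ihj (e * x * e⁻¹) (hnorm x hx)
      have e1 : e ^ (j + 1) * x * (e ^ (j + 1))⁻¹ = e ^ j * (e * x * e⁻¹) * (e ^ j)⁻¹ := by
        rw [pow_succ]
        group
      rw [e1]
      exact h1
  induction k with
  | zero => exact ⟨1, N.one_mem, by simp⟩
  | succ k ih =>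
    obtain ⟨m', hm', h⟩ := ih
    refine ⟨m' * (e ^ k * m * (e ^ k)⁻¹), N.mul_mem hm' (hk k m hm), ?_⟩
    rw [pow_succ, h, pow_succ]
    group

/-- The Weyl-element contradiction: two commuting root elements `E₁`, `E₂` of order `r` in the
isometry group, such that `E₁ · (x E₂ x⁻¹) · E₁` swaps two distinct points, cannot exist when
`x` induces an element of the odd-order normal subgroup `M`. -/
theorem GData.weyl [Finite F] (hn : 2 ≤ n) {G : Mx} {τ : RingAut F}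
    {D M : Subgroup (MulAut PSLn)} (hd : GData G τ D M) (r : ℕ) (hr : Odd r)
    (h : GLn) (σ : RingAut F) (ha : (cG h * fG σ : MulAut PSLn) ∈ M) (E₁ E₂ : SLn)
    (h1 : (E₁ : Mx)ᵀ * G * (E₁ : Mx).map τ = G) (h2 : (E₂ : Mx)ᵀ * G * (E₂ : Mx).map τ = G)
    (hcomm : E₁ * E₂ = E₂ * E₁) (h1r : E₁ ^ r = 1) (h2r : E₂ ^ r = 1)
    (u u' : Fin n → F) (hu' : u' ≠ 0) (hind : ∀ c : F, u ≠ c • u') (α β : F) (hβ : β ≠ 0)
    (hα : α ≠ 0)
    (hρu : ((E₁ * glAut h (fAutN σ E₂) * E₁ : SLn) : Mx) *ᵥ u = β • u')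
    (hρu' : ((E₁ * glAut h (fAutN σ E₂) * E₁ : SLn) : Mx) *ᵥ u' = α • u) : False := by
  haveI : Finite (MulAut PSLn) := finite_aut_psl
  obtain ⟨a, ha_def⟩ : ∃ a : MulAut PSLn, a = cG h * fG σ := ⟨_, rfl⟩
  obtain ⟨E₂', hE₂'⟩ : ∃ E₂' : SLn, E₂' = glAut h (fAutN σ E₂) := ⟨_, rfl⟩
  rw [← hE₂'] at hρu hρu'
  rw [← ha_def] at ha
  have hd1 : MulAut.conj (pmn E₁) ∈ D := hd.iso E₁ h1
  have hd2 : MulAut.conj (pmn E₂) ∈ D := hd.iso E₂ h2
  obtain ⟨φ, hφ⟩ : ∃ φ : SLn →* MulAut PSLn, φ = (MulAut.conj : PSLn →* MulAut PSLn).comp pmn :=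
    ⟨_, rfl⟩
  have hφa : ∀ s : SLn, φ s = MulAut.conj (pmn s) := fun s => by rw [hφ]; rfl
  obtain ⟨M', hM'⟩ : ∃ M' : Subgroup SLn, M' = M.comap φ := ⟨_, rfl⟩
  have hmem : ∀ s : SLn, s ∈ M' ↔ φ s ∈ M := fun s => by rw [hM']; rfl
  have hnormS : ∀ E : SLn, φ E ∈ D → ∀ x ∈ M', E * x * E⁻¹ ∈ M' := by
    intro E hE x hx
    rw [hmem] at hx ⊢
    rw [map_mul, map_mul, map_inv]
    exact hd.norm _ hE _ hx
  have hm0 : E₂' * E₂⁻¹ ∈ M' := by
    rw [hmem]
    have e1 : φ (E₂' * E₂⁻¹) = a * (φ E₂ * a⁻¹ * (φ E₂)⁻¹) := by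
      have e2 : φ E₂' = a * φ E₂ * a⁻¹ := by
        rw [hφa, hφa, conj_aut, hE₂', ha_def, MulAut.mul_apply, fG_pmn, cG_pmn]
      rw [map_mul, map_inv, e2]
      group
    rw [e1]
    exact M.mul_mem ha (hd.norm _ (by rw [hφa]; exact hd2) _ (M.inv_mem ha))
  have hE1 : φ E₁ ∈ D := by rw [hφa]; exact hd1
  have hE2 : φ E₂ ∈ D := by rw [hφa]; exact hd2
  obtain ⟨ρ, hρ⟩ : ∃ ρ : SLn, ρ = E₁ * E₂' * E₁ := ⟨_, rfl⟩
  rw [← hρ] at hρu hρu'
  obtain ⟨E₃, hE₃⟩ : ∃ E₃ : SLn, E₃ = E₁ * E₂ * E₁ := ⟨_, rfl⟩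
  have hE3 : φ E₃ ∈ D := by
    rw [hE₃, map_mul, map_mul]
    exact D.mul_mem (D.mul_mem hE1 hE2) hE1
  have hm' : E₁ * (E₂' * E₂⁻¹) * E₁⁻¹ ∈ M' := hnormS E₁ hE1 _ hm0
  have hρ2 : ρ = E₁ * (E₂' * E₂⁻¹) * E₁⁻¹ * E₃ := by
    rw [hρ, hE₃]
    group
  obtain ⟨m'', hm'', hpow⟩ := pow_mem_of_normalizes M' _ E₃ hm' (hnormS E₃ hE3) r
  have hE3r : E₃ ^ r = 1 := by
    have hc : Commute E₁ E₂ := hcomm
    have e1 : E₃ = E₁ ^ 2 * E₂ := by
      rw [hE₃, mul_assoc, ← hcomm, ← mul_assoc, pow_two]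
    rw [e1, (hc.pow_left 2).mul_pow, h2r, mul_one, ← pow_mul, mul_comm, pow_mul, h1r, one_pow]
  rw [← hρ2, hE3r, mul_one] at hpow
  have hρr : φ (ρ ^ r) ∈ M := by
    rw [hpow, ← hmem]
    exact hm''
  have hN : Odd (Nat.card M) := Nat.coprime_two_right.mp hd.odd
  have hone : φ (ρ ^ (r * Nat.card M)) = 1 := by
    rw [pow_mul, map_pow]
    have h3 : (⟨φ (ρ ^ r), hρr⟩ : M) ^ Nat.card M = 1 := pow_card_eq_one'
    have h4 := congrArg Subtype.val h3
    rwa [Subgroup.coe_pow, Subgroup.coe_one] at h4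
  rw [hφa] at hone
  have hone' : pmn (ρ ^ (r * Nat.card M)) = 1 := by
    apply conj_injective_psl hn
    rw [hone, map_one]
  obtain ⟨c, -, hc⟩ := (pmn_eq_iff (1 : SLn) (ρ ^ (r * Nat.card M))).mp (by rw [hone', map_one])
  obtain ⟨j, hj⟩ := hr.mul hN
  have hact : ∀ j : ℕ, ((ρ : Mx) ^ (2 * j + 1)) *ᵥ u = ((α * β) ^ j * β) • u' := by
    intro j
    induction j with
    | zero => simpa using hρu
    | succ j ih =>
      have e1 : (ρ : Mx) ^ (2 * (j + 1) + 1) = (ρ : Mx) ^ (2 * j + 1) * ((ρ : Mx) * (ρ : Mx)) := by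
        rw [show 2 * (j + 1) + 1 = (2 * j + 1) + 1 + 1 by ring, pow_succ, pow_succ,
          Matrix.mul_assoc]
      rw [e1, ← Matrix.mulVec_mulVec, ← Matrix.mulVec_mulVec, hρu, Matrix.mulVec_smul, hρu',
        Matrix.mulVec_smul, Matrix.mulVec_smul, ih, smul_smul, smul_smul]
      congr 1
      ring
  have h5 := hact j
  rw [← hj, ← Matrix.SpecialLinearGroup.coe_pow, hc, Matrix.SpecialLinearGroup.coe_one,
    Matrix.smul_mulVec, Matrix.one_mulVec] at h5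
  have hne : (α * β) ^ j * β ≠ 0 := mul_ne_zero (pow_ne_zero _ (mul_ne_zero hα hβ)) hβ
  have hc0 : c ≠ 0 := by
    rintro rfl
    rw [zero_smul] at h5
    exact (smul_ne_zero hne hu') h5.symm
  apply hind (c⁻¹ * ((α * β) ^ j * β))
  rw [← smul_smul, ← h5, smul_smul, inv_mul_cancel₀ hc0, one_smul]

/-! ### The sesquilinear form -/

/-- The `τ`-sesquilinear form with Gram matrix `G`. -/
def Sf (G : Matrix (Fin n) (Fin n) F) (τ : RingAut F) (y z : Fin n → F) : F :=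
  y ⬝ᵥ (G *ᵥ (τ ∘ z))

section form

variable (G : Matrix (Fin n) (Fin n) F) (τ : RingAut F)

theorem Sf_add_left (y y' z : Fin n → F) : Sf G τ (y + y') z = Sf G τ y z + Sf G τ y' z := by
  unfold Sf
  rw [add_dotProduct]

theorem Sf_add_right (y z z' : Fin n → F) : Sf G τ y (z + z') = Sf G τ y z + Sf G τ y z' := by
  unfold Sf
  rw [comp_add', Matrix.mulVec_add, dotProduct_add]

theorem Sf_smul_left (c : F) (y z : Fin n → F) : Sf G τ (c • y) z = c * Sf G τ y z := by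
  unfold Sf
  rw [smul_dotProduct, smul_eq_mul]

theorem Sf_smul_right (c : F) (y z : Fin n → F) : Sf G τ y (c • z) = τ c * Sf G τ y z := by
  unfold Sf
  rw [comp_smul', Matrix.mulVec_smul, dotProduct_smul, smul_eq_mul]

theorem Sf_neg_left (y z : Fin n → F) : Sf G τ (-y) z = -Sf G τ y z := by
  unfold Sf
  rw [neg_dotProduct]

theorem Sf_neg_right (y z : Fin n → F) : Sf G τ y (-z) = -Sf G τ y z := by
  have := Sf_smul_right G τ (-1) y z
  rwa [neg_one_smul, map_neg, map_one, neg_one_mul] at this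

theorem Sf_sub_left (y y' z : Fin n → F) : Sf G τ (y - y') z = Sf G τ y z - Sf G τ y' z := by
  rw [sub_eq_add_neg, Sf_add_left, Sf_neg_left, sub_eq_add_neg]

theorem Sf_sub_right (y z z' : Fin n → F) : Sf G τ y (z - z') = Sf G τ y z - Sf G τ y z' := by
  rw [sub_eq_add_neg, Sf_add_right, Sf_neg_right, sub_eq_add_neg]

theorem Sf_zero_left (z : Fin n → F) : Sf G τ 0 z = 0 := by
  unfold Sf
  rw [zero_dotProduct]

theorem Sf_zero_right (y : Fin n → F) : Sf G τ y 0 = 0 := by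
  have := Sf_smul_right G τ 0 y 0
  rwa [zero_smul, map_zero, zero_mul] at this

theorem Sf_symm {ε : F} (hsym : (G.map τ)ᵀ = ε • G) (hτ2 : ∀ c, τ (τ c) = c)
    (y z : Fin n → F) : τ (Sf G τ z y) = ε * Sf G τ y z := by
  unfold Sf
  have e1 : (τ ∘ (τ ∘ y)) = y := by
    ext i
    exact hτ2 (y i)
  rw [← comp_dot, ← comp_mulVec, e1, Matrix.dotProduct_mulVec, ← Matrix.mulVec_transpose, hsym,
    dotProduct_comm, Matrix.smul_mulVec, dotProduct_smul, smul_eq_mul]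

theorem mx_ext_mulVec {A A' : Mx} (h : ∀ y : Fin n → F, A *ᵥ y = A' *ᵥ y) : A = A' := by
  ext i j
  have := congrFun (h (Pi.single j 1)) i
  simpa using this

theorem mx_eq_of_bf {A A' : Mx} (h : ∀ y z : Fin n → F, y ⬝ᵥ (A *ᵥ z) = y ⬝ᵥ (A' *ᵥ z)) :
    A = A' := by
  apply mx_ext_mulVec
  intro z
  ext i
  have := h (Pi.single i 1) z
  simpa using this

/-- A matrix preserving the form satisfies the matrix isometry condition. -/
theorem iso_of_sf (E : Mx) (h : ∀ y z : Fin n → F, Sf G τ (E *ᵥ y) (E *ᵥ z) = Sf G τ y z) :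
    Eᵀ * G * E.map τ = G := by
  apply mx_eq_of_bf
  intro y z
  have h1 := h y (τ.symm ∘ z)
  unfold Sf at h1
  have e1 : (τ ∘ (τ.symm ∘ z)) = z := by
    ext i
    simp
  rw [← comp_mulVec, e1] at h1
  rw [← h1, ← Matrix.mulVec_mulVec, ← Matrix.mulVec_mulVec, Matrix.dotProduct_mulVec,
    Matrix.vecMul_transpose]

/-- Semi-similitudes scale the form. -/
theorem semi_sf {h : GLn} {σ : RingAut F} {ν : F} (hcomm : ∀ c, τ (σ c) = σ (τ c))
    (hsemi : (h : Mx)ᵀ * G * (h : Mx).map τ = ν • G.map σ) (y z : Fin n → F) :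
    Sf G τ (sact h σ y) (sact h σ z) = ν * σ (Sf G τ y z) := by
  unfold Sf sact
  have e1 : (τ ∘ (σ ∘ z)) = σ ∘ (τ ∘ z) := by
    ext i
    exact hcomm (z i)
  have e2 : (τ ∘ ((h : Mx) *ᵥ (σ ∘ z))) = ((h : Mx).map τ) *ᵥ (σ ∘ (τ ∘ z)) := by
    rw [← comp_mulVec, e1]
  have e3 : ((h : Mx) *ᵥ (σ ∘ y)) ⬝ᵥ (G *ᵥ (((h : Mx).map τ) *ᵥ (σ ∘ (τ ∘ z)))) =
      (σ ∘ y) ⬝ᵥ (((h : Mx)ᵀ * G * (h : Mx).map τ) *ᵥ (σ ∘ (τ ∘ z))) := by
    rw [← Matrix.vecMul_transpose (h : Mx) (σ ∘ y), ← Matrix.dotProduct_mulVec,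
      Matrix.mulVec_mulVec, Matrix.mulVec_mulVec, Matrix.mul_assoc]
  rw [e2, e3, hsemi, Matrix.smul_mulVec, dotProduct_smul, smul_eq_mul, comp_mulVec, comp_dot]

end form

theorem map_one_aut (A : Mx) : A.map ⇑(1 : RingAut F) = A := by
  ext i j
  rfl

end Cfsg.Agent.Lib.Helper43.PSLBal
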