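import Mathlib
import Cfsg.Agent.Lib.Helper43.PSLBal.GraphCommon

set_option autoImplicit false

/-!
# Graph-type involutions of symmetric type: Siegel elements of the orthogonal group
-/

namespace Cfsg.Agent.Lib.Helper43.PSLBal

open Matrix Cfsg.Agent.Lib.Helper43.AutPSLn Cfsg.Agent.Lib.Helper43.FieldAut
  Cfsg.Agent.Lib.Helper43.AutSp4

variable {n : ℕ} {F : Type*} [Field F]

local notation "Mx" => Matrix (Fin n) (Fin n) F
local notation "SLn" => Matrix.SpecialLinearGroup (Fin n) F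
local notation "PSLn" => Matrix.ProjectiveSpecialLinearGroup (Fin n) F
local notation "GLn" => GL (Fin n) F

/-- The bilinear form with Gram matrix `G`. -/
def Bf (G : Matrix (Fin n) (Fin n) F) (y z : Fin n → F) : F := y ⬝ᵥ (G *ᵥ z)

section bf

variable (G : Matrix (Fin n) (Fin n) F)

theorem Sf_one (y z : Fin n → F) : Sf G (1 : RingAut F) y z = Bf G y z := rfl

theorem Bf_add_left (y y' z : Fin n → F) : Bf G (y + y') z = Bf G y z + Bf G y' z := by
  unfold Bf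
  rw [add_dotProduct]

theorem Bf_add_right (y z z' : Fin n → F) : Bf G y (z + z') = Bf G y z + Bf G y z' := by
  unfold Bf
  rw [Matrix.mulVec_add, dotProduct_add]

theorem Bf_smul_left (c : F) (y z : Fin n → F) : Bf G (c • y) z = c * Bf G y z := by
  unfold Bf
  rw [smul_dotProduct, smul_eq_mul]

theorem Bf_smul_right (c : F) (y z : Fin n → F) : Bf G y (c • z) = c * Bf G y z := by
  unfold Bf
  rw [Matrix.mulVec_smul, dotProduct_smul, smul_eq_mul]

theorem Bf_neg_left (y z : Fin n → F) : Bf G (-y) z = -Bf G y z := by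
  unfold Bf
  rw [neg_dotProduct]

theorem Bf_neg_right (y z : Fin n → F) : Bf G y (-z) = -Bf G y z := by
  unfold Bf
  rw [Matrix.mulVec_neg, dotProduct_neg]

theorem Bf_sub_left (y y' z : Fin n → F) : Bf G (y - y') z = Bf G y z - Bf G y' z := by
  rw [sub_eq_add_neg, Bf_add_left, Bf_neg_left, sub_eq_add_neg]

theorem Bf_sub_right (y z z' : Fin n → F) : Bf G y (z - z') = Bf G y z - Bf G y z' := by
  rw [sub_eq_add_neg, Bf_add_right, Bf_neg_right, sub_eq_add_neg]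

theorem Bf_zero_left (z : Fin n → F) : Bf G 0 z = 0 := by
  unfold Bf
  rw [zero_dotProduct]

theorem Bf_zero_right (y : Fin n → F) : Bf G y 0 = 0 := by
  unfold Bf
  rw [Matrix.mulVec_zero, dotProduct_zero]

variable {G}

theorem Bf_comm (hG : Gᵀ = G) (y z : Fin n → F) : Bf G y z = Bf G z y := by
  unfold Bf
  rw [Matrix.dotProduct_mulVec, ← Matrix.mulVec_transpose, hG, dotProduct_comm]

theorem mulVec_dot (hG : Gᵀ = G) (w y : Fin n → F) : (G *ᵥ w) ⬝ᵥ y = Bf G w y := by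
  rw [dotProduct_comm]
  exact Bf_comm hG y w

/-- Non-degeneracy. -/
theorem Bf_nondeg (hdet : G.det ≠ 0) {v : Fin n → F} (hv : v ≠ 0) : ∃ y, Bf G y v ≠ 0 := by
  have h1 : G *ᵥ v ≠ 0 := by
    intro h0
    apply hv
    have h2 : G⁻¹ *ᵥ (G *ᵥ v) = v := by
      rw [Matrix.mulVec_mulVec, Matrix.nonsing_inv_mul _ (isUnit_iff_ne_zero.mpr hdet),
        Matrix.one_mulVec]
    rw [← h2, h0, Matrix.mulVec_zero]
  obtain ⟨i, hi⟩ := exists_ne_zero_of_ne h1
  refine ⟨Pi.single i 1, ?_⟩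
  unfold Bf
  rwa [single_one_dotProduct]

/-- Separation: a vector perpendicular to `u` but not to `u'`. -/
theorem Bf_sep (hG : Gᵀ = G) (hdet : G.det ≠ 0) {u u' : Fin n → F} (hu' : u' ≠ 0)
    (h : ∀ c : F, u' ≠ c • u) : ∃ d, Bf G d u = 0 ∧ Bf G d u' ≠ 0 := by
  have hinj : ∀ v : Fin n → F, G *ᵥ v = 0 → v = 0 := by
    intro v h0
    have h2 : G⁻¹ *ᵥ (G *ᵥ v) = v := by
      rw [Matrix.mulVec_mulVec, Matrix.nonsing_inv_mul _ (isUnit_iff_ne_zero.mpr hdet),
        Matrix.one_mulVec]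
    rw [← h2, h0, Matrix.mulVec_zero]
  have h1 : G *ᵥ u' ≠ 0 := fun h0 => hu' (hinj _ h0)
  have h2 : ¬ Par (G *ᵥ u) (G *ᵥ u') := by
    rintro ⟨c, -, hc⟩
    apply h c
    have h3 : G *ᵥ (u' - c • u) = 0 := by
      rw [Matrix.mulVec_sub, Matrix.mulVec_smul, hc, sub_self]
    exact sub_eq_zero.mp (hinj _ h3)
  obtain ⟨y, hy1, hy2⟩ := exists_sep h1 h2
  refine ⟨y, ?_, ?_⟩
  · rw [Bf_comm hG]
    rw [← mulVec_dot hG]
    exact hy1
  · rw [Bf_comm hG, ← mulVec_dot hG]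
    exact hy2

end bf

/-! ### Siegel elements -/

/-- The Siegel transformation `y ↦ y + B(w,y) u - B(u,y) w - κ B(u,y) u`. -/
def Emat (G : Matrix (Fin n) (Fin n) F) (u w : Fin n → F) (κ : F) : Matrix (Fin n) (Fin n) F :=
  1 + Matrix.vecMulVec u (G *ᵥ w) - Matrix.vecMulVec w (G *ᵥ u) -
    κ • Matrix.vecMulVec u (G *ᵥ u)

section siegel

variable {G : Matrix (Fin n) (Fin n) F}

theorem Emat_mulVec (hG : Gᵀ = G) (u w : Fin n → F) (κ : F) (y : Fin n → F) :
    Emat G u w κ *ᵥ y = y + Bf G w y • u - Bf G u y • w - (κ * Bf G u y) • u := by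
  unfold Emat
  rw [Matrix.sub_mulVec, Matrix.sub_mulVec, Matrix.add_mulVec, Matrix.one_mulVec,
    Matrix.smul_mulVec]
  simp only [Matrix.vecMulVec_mulVec, op_smul_eq_smul, mulVec_dot hG, smul_smul]

theorem Emat_zero (u : Fin n → F) : Emat G u 0 0 = 1 := by
  unfold Emat
  rw [Matrix.mulVec_zero, zero_smul, sub_zero]
  simp [Matrix.vecMulVec]

/-- Siegel elements are isometries. -/
theorem Emat_bf (hG : Gᵀ = G) {u w : Fin n → F} {κ : F} (huu : Bf G u u = 0)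
    (huw : Bf G u w = 0) (hκ : Bf G w w = 2 * κ) (y z : Fin n → F) :
    Bf G (Emat G u w κ *ᵥ y) (Emat G u w κ *ᵥ z) = Bf G y z := by
  have hwu : Bf G w u = 0 := by rw [Bf_comm hG, huw]
  rw [Emat_mulVec hG, Emat_mulVec hG]
  simp only [Bf_add_left, Bf_add_right, Bf_sub_left, Bf_sub_right, Bf_smul_left, Bf_smul_right,
    huu, huw, hwu, hκ, Bf_comm hG y u, Bf_comm hG y w]
  ring

theorem Emat_iso (hG : Gᵀ = G) {u w : Fin n → F} {κ : F} (huu : Bf G u u = 0)
    (huw : Bf G u w = 0) (hκ : Bf G w w = 2 * κ) :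
    (Emat G u w κ)ᵀ * G * (Emat G u w κ).map ⇑(1 : RingAut F) = G := by
  apply iso_of_sf
  intro y z
  rw [Sf_one, Sf_one]
  exact Emat_bf hG huu huw hκ y z

/-- Siegel elements with the same centre multiply additively. -/
theorem Emat_mul (hG : Gᵀ = G) {u w w' : Fin n → F} (κ κ' : F) (huu : Bf G u u = 0)
    (huw : Bf G u w = 0) (huw' : Bf G u w' = 0) :
    Emat G u w κ * Emat G u w' κ' = Emat G u (w + w') (κ + κ' + Bf G w w') := by
  have hwu : Bf G w u = 0 := by rw [Bf_comm hG, huw]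
  apply mx_ext_mulVec
  intro y
  rw [← Matrix.mulVec_mulVec, Emat_mulVec hG, Emat_mulVec hG, Emat_mulVec hG]
  simp only [Bf_add_left, Bf_add_right, Bf_sub_left, Bf_sub_right, Bf_smul_left, Bf_smul_right,
    huu, huw, huw', hwu]
  ext i
  simp only [Pi.add_apply, Pi.sub_apply, Pi.smul_apply, smul_eq_mul]
  ring

theorem Emat_pow (hG : Gᵀ = G) {u w : Fin n → F} {κ : F} (huu : Bf G u u = 0)
    (huw : Bf G u w = 0) (hκ : Bf G w w = 2 * κ) (k : ℕ) :
    Emat G u w κ ^ k = Emat G u ((k : F) • w) ((k : F) ^ 2 * κ) := by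
  induction k with
  | zero =>
    rw [pow_zero, Nat.cast_zero, zero_smul, zero_pow (by norm_num), zero_mul, Emat_zero]
  | succ k ih =>
    have h1 : Bf G u ((k : F) • w) = 0 := by rw [Bf_smul_right, huw, mul_zero]
    rw [pow_succ, ih, Emat_mul hG _ _ huu h1 huw, Bf_smul_left, hκ]
    have e1 : (k : F) • w + w = (((k + 1 : ℕ) : F)) • w := by
      rw [Nat.cast_add, Nat.cast_one, add_smul, one_smul]
    have e2 : (k : F) ^ 2 * κ + κ + (k : F) * (2 * κ) = (((k + 1 : ℕ) : F)) ^ 2 * κ := by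
      rw [Nat.cast_add, Nat.cast_one]
      ring
    rw [e1, e2]

theorem Emat_pow_char (hG : Gᵀ = G) {u w : Fin n → F} {κ : F} (huu : Bf G u u = 0)
    (huw : Bf G u w = 0) (hκ : Bf G w w = 2 * κ) (r : ℕ) [CharP F r] :
    Emat G u w κ ^ r = 1 := by
  rw [Emat_pow hG huu huw hκ, CharP.cast_eq_zero, zero_smul, zero_pow (by norm_num), zero_mul,
    Emat_zero]

theorem Emat_det (hG : Gᵀ = G) (hdet : G.det ≠ 0) (h2 : (2 : F) ≠ 0) {u w : Fin n → F} {κ : F}
    (huu : Bf G u u = 0) (huw : Bf G u w = 0) (hκ : Bf G w w = 2 * κ) :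
    (Emat G u w κ).det = 1 := by
  have h4 : (4 : F) ≠ 0 := by
    have : (4 : F) = 2 * 2 := by norm_num
    rw [this]
    exact mul_ne_zero h2 h2
  have huw2 : Bf G u ((2 : F)⁻¹ • w) = 0 := by rw [Bf_smul_right, huw, mul_zero]
  have hκ2 : Bf G ((2 : F)⁻¹ • w) ((2 : F)⁻¹ • w) = 2 * (κ / 4) := by
    rw [Bf_smul_left, Bf_smul_right, hκ]
    field_simp
    ring
  have h5 : Emat G u w κ = Emat G u ((2 : F)⁻¹ • w) (κ / 4) * Emat G u ((2 : F)⁻¹ • w) (κ / 4) := by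
    rw [Emat_mul hG _ _ huu huw2 huw2, Bf_smul_left, Bf_smul_right, hκ]
    congr 1
    · rw [← add_smul]
      have : (2 : F)⁻¹ + (2 : F)⁻¹ = 1 := by field_simp; norm_num
      rw [this, one_smul]
    · field_simp
      ring
  have h6 := congrArg Matrix.det (Emat_iso hG huu huw2 hκ2)
  rw [map_one_aut, Matrix.det_mul, Matrix.det_mul, Matrix.det_transpose] at h6
  have h7 : (Emat G u ((2 : F)⁻¹ • w) (κ / 4)).det * (Emat G u ((2 : F)⁻¹ • w) (κ / 4)).det = 1 := by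
    apply mul_right_cancel₀ hdet
    rw [one_mul]
    linear_combination h6
  rw [h5, Matrix.det_mul, h7]

end siegel

/-! ### Conjugating Siegel elements by semi-similitudes -/

theorem sact_sub (h : GLn) (σ : RingAut F) (y z : Fin n → F) :
    sact h σ (y - z) = sact h σ y - sact h σ z := by
  have h1 := sact_add h σ (y - z) z
  rw [sub_add_cancel] at h1
  rw [h1, add_sub_cancel_right]

theorem conj_mulVec_sact' (h : GLn) (σ : RingAut F) (E : Mx) (y : Fin n → F) :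
    ((h : Mx) * E.map σ * ((h⁻¹ : GLn) : Mx)) *ᵥ sact h σ y = sact h σ (E *ᵥ y) := by
  unfold sact
  rw [Matrix.mulVec_mulVec, Matrix.mul_assoc, Matrix.mul_assoc,
    Units.inv_mul, Matrix.mul_one, ← Matrix.mulVec_mulVec, comp_mulVec]

section siegel2

variable {G : Matrix (Fin n) (Fin n) F}

theorem Bf_semi {h : GLn} {σ : RingAut F} {ν : F}
    (hsemi : (h : Mx)ᵀ * G * (h : Mx).map ⇑(1 : RingAut F) = ν • G.map σ) (y z : Fin n → F) :
    Bf G (sact h σ y) (sact h σ z) = ν * σ (Bf G y z) := by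
  have := semi_sf G (1 : RingAut F) (h := h) (σ := σ) (fun _ => rfl) hsemi y z
  rwa [Sf_one, Sf_one] at this

theorem Emat_conj (hG : Gᵀ = G) {h : GLn} {σ : RingAut F} {ν : F} (hν : ν ≠ 0)
    (hsemi : (h : Mx)ᵀ * G * (h : Mx).map ⇑(1 : RingAut F) = ν • G.map σ)
    (u w : Fin n → F) (κ : F) :
    (h : Mx) * (Emat G u w κ).map σ * ((h⁻¹ : GLn) : Mx) =
      Emat G (sact h σ u) (ν⁻¹ • sact h σ w) (ν⁻¹ * σ κ) := by
  apply mx_ext_mulVec
  intro v
  rw [← sact_sinv h σ v, conj_mulVec_sact', Emat_mulVec hG, Emat_mulVec hG, sact_sub, sact_sub,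
    sact_add, sact_smul, sact_smul, sact_smul, Bf_smul_left, Bf_semi hsemi, Bf_semi hsemi,
    smul_smul, map_mul]
  ext i
  simp only [Pi.add_apply, Pi.sub_apply, Pi.smul_apply, smul_eq_mul]
  field_simp

/-! ### The Weyl elements -/

theorem weyl_np (hG : Gᵀ = G) {u u' w₁ : Fin n → F} {κ₁ δ s : F} (huu : Bf G u u = 0)
    (hu'u' : Bf G u' u' = 0) (hδ : Bf G u u' = δ) (huw : Bf G u w₁ = 0)
    (hu'w : Bf G u' w₁ = 0) (hκ : Bf G w₁ w₁ = 2 * κ₁) (hs : s * κ₁ * δ = 1) :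
    (Emat G u w₁ κ₁ * Emat G u' (s • w₁) (s ^ 2 * κ₁) * Emat G u w₁ κ₁) *ᵥ u = (-s) • u' ∧
    (Emat G u w₁ κ₁ * Emat G u' (s • w₁) (s ^ 2 * κ₁) * Emat G u w₁ κ₁) *ᵥ u' =
      (-(κ₁ * δ)) • u := by
  have hδ' : Bf G u' u = δ := by rw [Bf_comm hG, hδ]
  have hwu : Bf G w₁ u = 0 := by rw [Bf_comm hG, huw]
  have hwu' : Bf G w₁ u' = 0 := by rw [Bf_comm hG, hu'w]
  constructor
  · rw [← Matrix.mulVec_mulVec, ← Matrix.mulVec_mulVec]
    simp only [Emat_mulVec hG, Bf_add_left, Bf_add_right, Bf_sub_left, Bf_sub_right,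
      Bf_smul_left, Bf_smul_right, huu, hu'u', hδ, hδ', huw, hu'w, hwu, hwu', hκ]
    ext i
    simp only [Pi.add_apply, Pi.sub_apply, Pi.smul_apply, smul_eq_mul]
    linear_combination (-((1 - s * κ₁ * δ) * u i - δ * s * w₁ i + s * u' i)) * hs
  · rw [← Matrix.mulVec_mulVec, ← Matrix.mulVec_mulVec]
    simp only [Emat_mulVec hG, Bf_add_left, Bf_add_right, Bf_sub_left, Bf_sub_right,
      Bf_smul_left, Bf_smul_right, huu, hu'u', hδ, hδ', huw, hu'w, hwu, hwu', hκ]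
    ext i
    simp only [Pi.add_apply, Pi.sub_apply, Pi.smul_apply, smul_eq_mul]
    linear_combination (-((1 - s * κ₁ * δ) * u' i - δ * (1 - s * κ₁ * δ) * w₁ i
      - κ₁ * δ * (1 - s * κ₁ * δ) * u i - δ * w₁ i - 2 * κ₁ * δ * u i)) * hs

theorem weyl_p (hG : Gᵀ = G) {u u' w₁ w₂ : Fin n → F} {κ₁ κ₂ α β : F} (huu : Bf G u u = 0)
    (hu'u' : Bf G u' u' = 0) (huu' : Bf G u u' = 0) (huw : Bf G u w₁ = 0)
    (hu'w : Bf G u' w₂ = 0) (hα : Bf G w₁ u' = α) (hβ : Bf G w₂ u = β) (hαβ : α * β = -1) :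
    (Emat G u w₁ κ₁ * Emat G u' w₂ κ₂ * Emat G u w₁ κ₁) *ᵥ u = β • u' ∧
    (Emat G u w₁ κ₁ * Emat G u' w₂ κ₂ * Emat G u w₁ κ₁) *ᵥ u' = α • u := by
  have hu'u : Bf G u' u = 0 := by rw [Bf_comm hG, huu']
  have hwu : Bf G w₁ u = 0 := by rw [Bf_comm hG, huw]
  have hwu' : Bf G w₂ u' = 0 := by rw [Bf_comm hG, hu'w]
  constructor
  · rw [← Matrix.mulVec_mulVec, ← Matrix.mulVec_mulVec]
    simp only [Emat_mulVec hG, Bf_add_left, Bf_add_right, Bf_sub_left, Bf_sub_right,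
      Bf_smul_left, Bf_smul_right, huu, hu'u', huu', hu'u, huw, hu'w, hwu, hwu', hα, hβ]
    ext i
    simp only [Pi.add_apply, Pi.sub_apply, Pi.smul_apply, smul_eq_mul]
    linear_combination (u i) * hαβ
  · rw [← Matrix.mulVec_mulVec, ← Matrix.mulVec_mulVec]
    simp only [Emat_mulVec hG, Bf_add_left, Bf_add_right, Bf_sub_left, Bf_sub_right,
      Bf_smul_left, Bf_smul_right, huu, hu'u', huu', hu'u, huw, hu'w, hwu, hwu', hα, hβ]
    ext i
    simp only [Pi.add_apply, Pi.sub_apply, Pi.smul_apply, smul_eq_mul]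
    linear_combination (u' i + α * u i) * hαβ

/-! ### Existence of vectors -/

theorem exists_aniso_perp (hn : 3 ≤ n) (hG : Gᵀ = G) (hdet : G.det ≠ 0) (h2 : (2 : F) ≠ 0)
    {u u' : Fin n → F} {δ : F} (huu : Bf G u u = 0) (hu'u' : Bf G u' u' = 0)
    (hδ : Bf G u u' = δ) (hδ0 : δ ≠ 0) :
    ∃ w, Bf G u w = 0 ∧ Bf G u' w = 0 ∧ Bf G w w ≠ 0 := by
  have hδ' : Bf G u' u = δ := by rw [Bf_comm hG, hδ]
  obtain ⟨z, hz0, hz1, hz2⟩ := exists_ker2 hn (G *ᵥ u) (G *ᵥ u')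
  rw [mulVec_dot hG] at hz1 hz2
  by_cases hzz : Bf G z z = 0
  · obtain ⟨y, hy⟩ := Bf_nondeg hdet hz0
    obtain ⟨y', hy'⟩ : ∃ y' : Fin n → F, y' = y - (Bf G u' y / δ) • u - (Bf G u y / δ) • u' :=
      ⟨_, rfl⟩
    have h1 : Bf G u y' = 0 := by
      rw [hy', Bf_sub_right, Bf_sub_right, Bf_smul_right, Bf_smul_right, huu, hδ]
      field_simp
      ring
    have h2' : Bf G u' y' = 0 := by
      rw [hy', Bf_sub_right, Bf_sub_right, Bf_smul_right, Bf_smul_right, hu'u', hδ']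
      field_simp
      ring
    have h3 : Bf G y' z = Bf G y z := by
      rw [hy', Bf_sub_left, Bf_sub_left, Bf_smul_left, Bf_smul_left, hz1, hz2]
      ring
    by_cases hyy : Bf G y' y' = 0
    · refine ⟨z + y', ?_, ?_, ?_⟩
      · rw [Bf_add_right, hz1, h1, add_zero]
      · rw [Bf_add_right, hz2, h2', add_zero]
      · rw [Bf_add_left, Bf_add_right, Bf_add_right, hzz, hyy, Bf_comm hG z y', h3]
        intro h0
        apply hy
        have : (2 : F) * Bf G y z = 0 := by linear_combination h0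
        exact (mul_eq_zero.mp this).resolve_left h2
    · exact ⟨y', h1, h2', hyy⟩
  · exact ⟨z, hz1, hz2, hzz⟩

theorem exists_partner (hG : Gᵀ = G) (hdet : G.det ≠ 0) (h2 : (2 : F) ≠ 0) {u : Fin n → F}
    (hu : u ≠ 0) (huu : Bf G u u = 0) : ∃ v, Bf G v v = 0 ∧ Bf G u v = 1 := by
  obtain ⟨y, hy⟩ := Bf_nondeg hdet hu
  obtain ⟨y₁, hy₁⟩ : ∃ y₁ : Fin n → F, y₁ = (Bf G y u)⁻¹ • y := ⟨_, rfl⟩
  have h1 : Bf G y₁ u = 1 := by
    rw [hy₁, Bf_smul_left, inv_mul_cancel₀ hy]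
  have h1' : Bf G u y₁ = 1 := by rw [Bf_comm hG, h1]
  refine ⟨y₁ - (Bf G y₁ y₁ / 2) • u, ?_, ?_⟩
  · rw [Bf_sub_left, Bf_sub_right, Bf_sub_right, Bf_smul_left, Bf_smul_right, Bf_smul_right,
      Bf_smul_left, huu, h1, h1']
    field_simp
    ring
  · rw [Bf_sub_right, Bf_smul_right, huu, h1', mul_zero, sub_zero]

/-- Chevalley–Warning: a quadratic form in at least three variables over a finite field has a
non-trivial zero. -/
theorem exists_singular [Fintype F] (hn : 3 ≤ n) (G : Mx) :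
    ∃ u : Fin n → F, u ≠ 0 ∧ Bf G u u = 0 := by
  classical
  obtain ⟨p, hp⟩ := CharP.exists F
  haveI : Fact p.Prime := ⟨CharP.char_is_prime F p⟩
  obtain ⟨f, hf⟩ : ∃ f : MvPolynomial (Fin n) F,
      f = ∑ i, ∑ j, MvPolynomial.C (G i j) * MvPolynomial.X i * MvPolynomial.X j := ⟨_, rfl⟩
  have hev : ∀ x : Fin n → F, MvPolynomial.eval x f = Bf G x x := by
    intro x
    rw [hf]
    simp only [map_sum, map_mul, MvPolynomial.eval_C, MvPolynomial.eval_X]
    unfold Bf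
    simp only [dotProduct, Matrix.mulVec, Finset.mul_sum]
    apply Finset.sum_congr rfl
    intro i _
    apply Finset.sum_congr rfl
    intro j _
    ring
  have hdeg : f.totalDegree < Fintype.card (Fin n) := by
    rw [Fintype.card_fin]
    have h1 : f.totalDegree ≤ 2 := by
      rw [hf]
      apply MvPolynomial.totalDegree_finsetSum_le
      intro i _
      apply MvPolynomial.totalDegree_finsetSum_le
      intro j _
      refine (MvPolynomial.totalDegree_mul _ _).trans ?_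
      have h3 := MvPolynomial.totalDegree_mul (MvPolynomial.C (G i j)) (MvPolynomial.X i :
        MvPolynomial (Fin n) F)
      rw [MvPolynomial.totalDegree_C, MvPolynomial.totalDegree_X, zero_add] at h3
      rw [MvPolynomial.totalDegree_X]
      omega
    omega
  have hdvd := char_dvd_card_solutions p hdeg
  have hpos : 0 < Fintype.card { x : Fin n → F // MvPolynomial.eval x f = 0 } :=
    Fintype.card_pos_iff.mpr ⟨⟨0, by rw [hev]; exact Bf_zero_left G 0⟩⟩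
  have h2le : 2 ≤ Fintype.card { x : Fin n → F // MvPolynomial.eval x f = 0 } :=
    le_trans (Fact.out : p.Prime).two_le (Nat.le_of_dvd hpos hdvd)
  have hnt : Nontrivial { x : Fin n → F // MvPolynomial.eval x f = 0 } :=
    Fintype.one_lt_card_iff_nontrivial.mp (by omega)
  obtain ⟨⟨x, hx⟩, hne⟩ := exists_ne (⟨0, by rw [hev]; exact Bf_zero_left G 0⟩ :
    { x : Fin n → F // MvPolynomial.eval x f = 0 })
  refine ⟨x, fun h0 => hne (Subtype.ext h0), ?_⟩
  rw [← hev]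
  exact hx

end siegel2

end Cfsg.Agent.Lib.Helper43.PSLBal
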