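import Mathlib
import Cfsg.Agent.Lib.Helper43.PSLBal.GraphSym1

set_option autoImplicit false

/-!
# Graph-type involutions of symmetric type: the odd-order normal subgroup is trivial
-/

namespace Cfsg.Agent.Lib.Helper43.PSLBal

open Matrix Cfsg.Agent.Lib.Helper43.AutPSLn Cfsg.Agent.Lib.Helper43.FieldAut
  Cfsg.Agent.Lib.Helper43.AutSp4

variable {n : ℕ} {F : Type*} [Field F]

local notation "Mx" => Matrix (Fin n) (Fin n) F
local notation "SLn" => Matrix.SpecialLinearGroup (Fin n) F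
local notation "PSLn" => Matrix.ProjectiveSpecialLinearGroup (Fin n) F
local notation "GLn" => GL (Fin n) F

section sym

variable {G : Matrix (Fin n) (Fin n) F}

/-- A Siegel element at `x u` is the conjugate of a Siegel element at `u`. -/
theorem exists_preimage (hG : Gᵀ = G) {h : GLn} {σ : RingAut F} {ν : F} (hν : ν ≠ 0)
    (hsemi : (h : Mx)ᵀ * G * (h : Mx).map ⇑(1 : RingAut F) = ν • G.map σ)
    (u w₂ : Fin n → F) (κ₂ : F) (h1 : Bf G (sact h σ u) w₂ = 0) (h2 : Bf G w₂ w₂ = 2 * κ₂) :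
    ∃ (w : Fin n → F) (κ : F), Bf G u w = 0 ∧ Bf G w w = 2 * κ ∧
      (h : Mx) * (Emat G u w κ).map σ * ((h⁻¹ : GLn) : Mx) = Emat G (sact h σ u) w₂ κ₂ := by
  refine ⟨sinv h σ (ν • w₂), σ.symm (ν * κ₂), ?_, ?_, ?_⟩
  · have e1 := Bf_semi hsemi u (sinv h σ (ν • w₂))
    rw [sact_sinv, Bf_smul_right, h1, mul_zero] at e1
    have e2 : σ (Bf G u (sinv h σ (ν • w₂))) = 0 := by
      rcases mul_eq_zero.mp e1.symm with h0 | h0
      · exact absurd h0 hν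
      · exact h0
    exact (map_eq_zero σ).mp e2
  · have e1 := Bf_semi hsemi (sinv h σ (ν • w₂)) (sinv h σ (ν • w₂))
    rw [sact_sinv, Bf_smul_right, Bf_smul_left, h2] at e1
    have e2 : σ (Bf G (sinv h σ (ν • w₂)) (sinv h σ (ν • w₂))) = 2 * (ν * κ₂) := by
      apply mul_left_cancel₀ hν
      rw [← e1]
      ring
    apply σ.injective
    rw [e2, map_mul, RingEquiv.apply_symm_apply, map_ofNat]
  · rw [Emat_conj hG hν hsemi, sact_sinv, smul_smul, inv_mul_cancel₀ hν, one_smul,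
      RingEquiv.apply_symm_apply, ← mul_assoc, inv_mul_cancel₀ hν, one_mul]

/-- Packaging two Siegel elements with the same centre as commuting elements of `SL_n` of
order dividing the characteristic. -/
theorem exists_sl_pair (hG : Gᵀ = G) (hdet : G.det ≠ 0) (h2 : (2 : F) ≠ 0) (r : ℕ) [CharP F r]
    {u w₁ w : Fin n → F} {κ₁ κ : F} (huu : Bf G u u = 0) (huw₁ : Bf G u w₁ = 0)
    (hκ₁ : Bf G w₁ w₁ = 2 * κ₁) (huw : Bf G u w = 0) (hκ : Bf G w w = 2 * κ) :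
    ∃ E₁ E₂ : SLn, (E₁ : Mx) = Emat G u w₁ κ₁ ∧ (E₂ : Mx) = Emat G u w κ ∧
      E₁ * E₂ = E₂ * E₁ ∧ E₁ ^ r = 1 ∧ E₂ ^ r = 1 := by
  obtain ⟨E₁, hE₁⟩ : ∃ E₁ : SLn, (E₁ : Mx) = Emat G u w₁ κ₁ :=
    ⟨⟨Emat G u w₁ κ₁, Emat_det hG hdet h2 huu huw₁ hκ₁⟩, rfl⟩
  obtain ⟨E₂, hE₂⟩ : ∃ E₂ : SLn, (E₂ : Mx) = Emat G u w κ :=
    ⟨⟨Emat G u w κ, Emat_det hG hdet h2 huu huw hκ⟩, rfl⟩
  refine ⟨E₁, E₂, hE₁, hE₂, ?_, ?_, ?_⟩
  · apply Subtype.ext
    rw [Matrix.SpecialLinearGroup.coe_mul, Matrix.SpecialLinearGroup.coe_mul, hE₁, hE₂,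
      Emat_mul hG _ _ huu huw₁ huw, Emat_mul hG _ _ huu huw huw₁, add_comm w₁ w,
      Bf_comm hG w₁ w, add_comm κ₁ κ]
  · apply Subtype.ext
    rw [Matrix.SpecialLinearGroup.coe_pow, Matrix.SpecialLinearGroup.coe_one, hE₁]
    exact Emat_pow_char hG huu huw₁ hκ₁ r
  · apply Subtype.ext
    rw [Matrix.SpecialLinearGroup.coe_pow, Matrix.SpecialLinearGroup.coe_one, hE₂]
    exact Emat_pow_char hG huu huw hκ r

/-- Elements of the odd-order normal subgroup fix every singular point. -/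
theorem sym_fix [Finite F] (hn : 3 ≤ n) (r : ℕ) [CharP F r] (hr : Odd r) (h2 : (2 : F) ≠ 0)
    (hG : Gᵀ = G) (hdet : G.det ≠ 0) {D M : Subgroup (MulAut PSLn)}
    (hd : GData G (1 : RingAut F) D M) (h : GLn) (σ : RingAut F)
    (ha : (cG h * fG σ : MulAut PSLn) ∈ M) {u : Fin n → F} (hu : u ≠ 0)
    (huu : Bf G u u = 0) : ∃ c : F, sact h σ u = c • u := by
  by_contra hne
  push Not at hne
  obtain ⟨ν, hν, hsemi⟩ := hd.semi h σ ha
  obtain ⟨u', hu'def⟩ : ∃ u' : Fin n → F, u' = sact h σ u := ⟨_, rfl⟩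
  rw [← hu'def] at hne
  have hu' : u' ≠ 0 := by rw [hu'def]; exact sact_ne_zero h σ hu
  have hu'u' : Bf G u' u' = 0 := by rw [hu'def, Bf_semi hsemi, huu, map_zero, mul_zero]
  have hind : ∀ c : F, u ≠ c • u' := by
    intro c hc
    by_cases hc0 : c = 0
    · rw [hc0, zero_smul] at hc
      exact hu hc
    · apply hne c⁻¹
      rw [hc, smul_smul, inv_mul_cancel₀ hc0, one_smul]
  by_cases hδ0 : Bf G u u' = 0
  · -- perpendicular case
    obtain ⟨w₁, hw₁u, hw₁u'⟩ := Bf_sep hG hdet hu' hne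
    obtain ⟨w₂', hw₂u', hw₂u⟩ := Bf_sep hG hdet hu hind
    obtain ⟨α, hα⟩ : ∃ α : F, α = Bf G w₁ u' := ⟨_, rfl⟩
    have hα0 : α ≠ 0 := by rw [hα]; exact hw₁u'
    obtain ⟨w₂, hw₂⟩ : ∃ w₂ : Fin n → F, w₂ = (-(α * Bf G w₂' u)⁻¹) • w₂' := ⟨_, rfl⟩
    have hβ : Bf G w₂ u = -α⁻¹ := by
      rw [hw₂, Bf_smul_left]
      field_simp
    have hu'w₂ : Bf G u' w₂ = 0 := by
      rw [hw₂, Bf_smul_right, Bf_comm hG u' w₂', hw₂u', mul_zero]
    have huw₁ : Bf G u w₁ = 0 := by rw [Bf_comm hG, hw₁u]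
    have hκ₁ : Bf G w₁ w₁ = 2 * (Bf G w₁ w₁ / 2) := by field_simp
    have hκ₂ : Bf G w₂ w₂ = 2 * (Bf G w₂ w₂ / 2) := by field_simp
    obtain ⟨w, κ, huw, hκ, hconj⟩ := exists_preimage hG hν hsemi u w₂ (Bf G w₂ w₂ / 2)
      (by rw [← hu'def]; exact hu'w₂) hκ₂
    obtain ⟨E₁, E₂, hE₁, hE₂, hcomm, h1r, h2r⟩ :=
      exists_sl_pair hG hdet h2 r huu huw₁ hκ₁ huw hκ
    have hρ : ((E₁ * glAut h (fAutN σ E₂) * E₁ : SLn) : Mx) =
        Emat G u w₁ (Bf G w₁ w₁ / 2) * Emat G u' w₂ (Bf G w₂ w₂ / 2) *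
          Emat G u w₁ (Bf G w₁ w₁ / 2) := by
      rw [Matrix.SpecialLinearGroup.coe_mul, Matrix.SpecialLinearGroup.coe_mul, glAut_coe,
        fAutN_coe, hE₁, hE₂, hconj, hu'def]
    have hw := weyl_p hG (κ₁ := Bf G w₁ w₁ / 2) (κ₂ := Bf G w₂ w₂ / 2) huu hu'u' hδ0 huw₁ hu'w₂
      hα.symm hβ (by field_simp)
    refine hd.weyl (by omega) r hr h σ ha E₁ E₂ ?_ ?_ hcomm h1r h2r u u' hu' hind α (-α⁻¹)
      (neg_ne_zero.mpr (inv_ne_zero hα0)) hα0 ?_ ?_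
    · rw [hE₁]
      exact Emat_iso hG huu huw₁ hκ₁
    · rw [hE₂]
      exact Emat_iso hG huu huw hκ
    · rw [hρ]
      exact hw.1
    · rw [hρ]
      exact hw.2
  · -- non-perpendicular case
    obtain ⟨w₁, huw₁, hu'w₁, hw₁w₁⟩ := exists_aniso_perp hn hG hdet h2 huu hu'u' rfl hδ0
    obtain ⟨κ₁, hκ₁def⟩ : ∃ κ₁ : F, κ₁ = Bf G w₁ w₁ / 2 := ⟨_, rfl⟩
    have hκ₁ : Bf G w₁ w₁ = 2 * κ₁ := by rw [hκ₁def]; field_simp
    have hκ₁0 : κ₁ ≠ 0 := by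
      rw [hκ₁def]
      exact div_ne_zero hw₁w₁ h2
    obtain ⟨δ, hδ⟩ : ∃ δ : F, δ = Bf G u u' := ⟨_, rfl⟩
    rw [← hδ] at hδ0
    obtain ⟨s, hsdef⟩ : ∃ s : F, s = (κ₁ * δ)⁻¹ := ⟨_, rfl⟩
    have hs : s * κ₁ * δ = 1 := by
      rw [hsdef]
      field_simp
    have hs0 : s ≠ 0 := by
      rw [hsdef]
      exact inv_ne_zero (mul_ne_zero hκ₁0 hδ0)
    have hκ₂ : Bf G (s • w₁) (s • w₁) = 2 * (s ^ 2 * κ₁) := by
      rw [Bf_smul_left, Bf_smul_right, hκ₁]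
      ring
    obtain ⟨w, κ, huw, hκ, hconj⟩ := exists_preimage hG hν hsemi u (s • w₁) (s ^ 2 * κ₁)
      (by rw [← hu'def, Bf_smul_right, hu'w₁, mul_zero]) hκ₂
    obtain ⟨E₁, E₂, hE₁, hE₂, hcomm, h1r, h2r⟩ :=
      exists_sl_pair hG hdet h2 r huu huw₁ hκ₁ huw hκ
    have hρ : ((E₁ * glAut h (fAutN σ E₂) * E₁ : SLn) : Mx) =
        Emat G u w₁ κ₁ * Emat G u' (s • w₁) (s ^ 2 * κ₁) * Emat G u w₁ κ₁ := by
      rw [Matrix.SpecialLinearGroup.coe_mul, Matrix.SpecialLinearGroup.coe_mul, glAut_coe,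
        fAutN_coe, hE₁, hE₂, hconj, hu'def]
    have hw := weyl_np hG huu hu'u' hδ.symm huw₁ hu'w₁ hκ₁ hs
    refine hd.weyl (by omega) r hr h σ ha E₁ E₂ ?_ ?_ hcomm h1r h2r u u' hu' hind (-(κ₁ * δ)) (-s)
      (neg_ne_zero.mpr hs0) (neg_ne_zero.mpr (mul_ne_zero hκ₁0 hδ0)) ?_ ?_
    · rw [hE₁]
      exact Emat_iso hG huu huw₁ hκ₁
    · rw [hE₂]
      exact Emat_iso hG huu huw hκ
    · rw [hρ]
      exact hw.1
    · rw [hρ]
      exact hw.2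

theorem sact_of_fix {h : GLn} {σ : RingAut F} (hσ : ∀ c, σ c = c) (y : Fin n → F) :
    sact h σ y = (h : Mx) *ᵥ y := by
  unfold sact
  congr 1
  ext i
  exact hσ (y i)

/-- For a graph-type involution of symmetric type, the odd-order normal subgroup is trivial. -/
theorem sym_trivial [Fintype F] (hn : 3 ≤ n) (r : ℕ) [CharP F r] (hr : Odd r) (h2 : (2 : F) ≠ 0)
    (hG : Gᵀ = G) (hdet : G.det ≠ 0) {D M : Subgroup (MulAut PSLn)}
    (hd : GData G (1 : RingAut F) D M) : ∀ a ∈ M, a = 1 := by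
  intro a ha
  obtain ⟨h, σ, rfl⟩ := hd.form a ha
  have hfix : ∀ u : Fin n → F, u ≠ 0 → Bf G u u = 0 → ∃ c : F, sact h σ u = c • u :=
    fun u hu huu => sym_fix hn r hr h2 hG hdet hd h σ ha hu huu
  obtain ⟨ν, hν, hsemi⟩ := hd.semi h σ ha
  obtain ⟨u₀, hu₀, hu₀u₀⟩ := exists_singular hn G
  obtain ⟨v₀, hv₀v₀, hu₀v₀⟩ := exists_partner hG hdet h2 hu₀ hu₀u₀
  have hv₀u₀ : Bf G v₀ u₀ = 1 := by rw [Bf_comm hG, hu₀v₀]
  have hv₀ : v₀ ≠ 0 := by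
    rintro rfl
    rw [Bf_zero_right] at hu₀v₀
    exact zero_ne_one hu₀v₀
  obtain ⟨z₀, hu₀z₀, hv₀z₀, hz₀z₀⟩ :=
    exists_aniso_perp hn hG hdet h2 hu₀u₀ hv₀v₀ hu₀v₀ one_ne_zero
  have hz₀u₀ : Bf G z₀ u₀ = 0 := by rw [Bf_comm hG, hu₀z₀]
  have hz₀v₀ : Bf G z₀ v₀ = 0 := by rw [Bf_comm hG, hv₀z₀]
  obtain ⟨μu, hμu⟩ := hfix u₀ hu₀ hu₀u₀
  obtain ⟨μv, hμv⟩ := hfix v₀ hv₀ hv₀v₀
  have hμu0 : μu ≠ 0 := by
    rintro rfl
    rw [zero_smul] at hμu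
    exact sact_ne_zero h σ hu₀ hμu
  have hμv0 : μv ≠ 0 := by
    rintro rfl
    rw [zero_smul] at hμv
    exact sact_ne_zero h σ hv₀ hμv
  have hA : ∀ z : Fin n → F, Bf G u₀ z = 0 → Bf G v₀ z = 0 → ∀ c : F, c ≠ 0 →
      ∃ μ : F, sact h σ z + (σ c * μu) • u₀ - (σ (Bf G z z / (2 * c)) * μv) • v₀ =
        μ • (z + c • u₀ - (Bf G z z / (2 * c)) • v₀) := by
    intro z hz1 hz2 c hc
    have hzu : Bf G z u₀ = 0 := by rw [Bf_comm hG, hz1]
    have hzv : Bf G z v₀ = 0 := by rw [Bf_comm hG, hz2]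
    obtain ⟨s, hs⟩ : ∃ s : Fin n → F, s = z + c • u₀ - (Bf G z z / (2 * c)) • v₀ := ⟨_, rfl⟩
    have hss : Bf G s s = 0 := by
      rw [hs]
      simp only [Bf_add_left, Bf_add_right, Bf_sub_left, Bf_sub_right, Bf_smul_left,
        Bf_smul_right, hzu, hzv, hz1, hz2, hu₀u₀, hv₀v₀, hu₀v₀, hv₀u₀]
      field_simp
      ring
    have hs0 : s ≠ 0 := by
      intro h0
      have h1 : Bf G s v₀ = c := by
        rw [hs]
        simp only [Bf_add_left, Bf_sub_left, Bf_smul_left, hzv, hu₀v₀, hv₀v₀]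
        ring
      rw [h0, Bf_zero_left] at h1
      exact hc h1.symm
    obtain ⟨μ, hμ⟩ := hfix s hs0 hss
    refine ⟨μ, ?_⟩
    rw [← hs, ← hμ, hs, sact_sub, sact_add, sact_smul, sact_smul, hμu, hμv, smul_smul, smul_smul]
  have hB : ∀ z : Fin n → F, Bf G u₀ z = 0 → Bf G v₀ z = 0 →
      Bf G (sact h σ z) u₀ = 0 ∧ Bf G (sact h σ z) v₀ = 0 := by
    intro z hz1 hz2
    have hzu : Bf G z u₀ = 0 := by rw [Bf_comm hG, hz1]
    have hzv : Bf G z v₀ = 0 := by rw [Bf_comm hG, hz2]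
    constructor
    · have e1 := Bf_semi hsemi z u₀
      rw [hμu, Bf_smul_right, hzu, map_zero, mul_zero] at e1
      exact (mul_eq_zero.mp e1).resolve_left hμu0
    · have e1 := Bf_semi hsemi z v₀
      rw [hμv, Bf_smul_right, hzv, map_zero, mul_zero] at e1
      exact (mul_eq_zero.mp e1).resolve_left hμv0
  have hA' : ∀ z : Fin n → F, Bf G u₀ z = 0 → Bf G v₀ z = 0 → sact h σ z = μu • z := by
    intro z hz1 hz2
    have hzu : Bf G z u₀ = 0 := by rw [Bf_comm hG, hz1]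
    have hzv : Bf G z v₀ = 0 := by rw [Bf_comm hG, hz2]
    obtain ⟨μ, hμ⟩ := hA z hz1 hz2 1 one_ne_zero
    obtain ⟨hb1, hb2⟩ := hB z hz1 hz2
    rw [map_one, one_mul, mul_one] at hμ
    have e1 := congrArg (fun t => Bf G t v₀) hμ
    simp only [Bf_add_left, Bf_sub_left, Bf_smul_left, hb2, hu₀v₀, hv₀v₀, hzv] at e1
    have hμ1 : μ = μu := by linear_combination -e1
    have e2 := congrArg (fun t => Bf G t u₀) hμ
    simp only [Bf_add_left, Bf_sub_left, Bf_smul_left, hb1, hu₀u₀, hv₀u₀, hzu] at e2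
    rw [hμ1] at hμ e2
    ext i
    have e3 := congrFun hμ i
    simp only [Pi.add_apply, Pi.sub_apply, Pi.smul_apply, smul_eq_mul] at e3 ⊢
    linear_combination e3 - (v₀ i) * e2
  have hz₀ := hA' z₀ hu₀z₀ hv₀z₀
  have hσ : ∀ c : F, σ c = c := by
    intro c
    by_cases hc : c = 0
    · rw [hc, map_zero]
    obtain ⟨μ, hμ⟩ := hA z₀ hu₀z₀ hv₀z₀ c hc
    rw [hz₀] at hμ
    have e1 := congrArg (fun t => Bf G t z₀) hμ
    simp only [Bf_add_left, Bf_sub_left, Bf_smul_left, hu₀z₀, hv₀z₀] at e1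
    have hμ1 : μ = μu := by
      apply mul_right_cancel₀ hz₀z₀
      linear_combination -e1
    have e2 := congrArg (fun t => Bf G t v₀) hμ
    simp only [Bf_add_left, Bf_sub_left, Bf_smul_left, hz₀v₀, hu₀v₀, hv₀v₀] at e2
    rw [hμ1] at e2
    apply mul_right_cancel₀ hμu0
    linear_combination e2
  have hμvu : μv = μu := by
    obtain ⟨μ, hμ⟩ := hA z₀ hu₀z₀ hv₀z₀ 1 one_ne_zero
    rw [hz₀] at hμ
    simp only [hσ] at hμ
    have e1 := congrArg (fun t => Bf G t z₀) hμ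
    simp only [Bf_add_left, Bf_sub_left, Bf_smul_left, hu₀z₀, hv₀z₀] at e1
    have hμ1 : μ = μu := by
      apply mul_right_cancel₀ hz₀z₀
      linear_combination -e1
    have e2 := congrArg (fun t => Bf G t u₀) hμ
    simp only [Bf_add_left, Bf_sub_left, Bf_smul_left, hz₀u₀, hu₀u₀, hv₀u₀] at e2
    rw [hμ1] at e2
    have hq : Bf G z₀ z₀ / (2 * 1) ≠ 0 := div_ne_zero hz₀z₀ (by rw [mul_one]; exact h2)
    apply mul_left_cancel₀ hq
    linear_combination -e2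
  have hall : ∀ y : Fin n → F, (h : Mx) *ᵥ y = μu • y := by
    intro y
    rw [← sact_of_fix hσ]
    obtain ⟨z, hz⟩ : ∃ z : Fin n → F, z = y - Bf G y v₀ • u₀ - Bf G y u₀ • v₀ := ⟨_, rfl⟩
    have hz1 : Bf G u₀ z = 0 := by
      rw [hz, Bf_sub_right, Bf_sub_right, Bf_smul_right, Bf_smul_right, hu₀u₀, hu₀v₀,
        Bf_comm hG u₀ y]
      ring
    have hz2 : Bf G v₀ z = 0 := by
      rw [hz, Bf_sub_right, Bf_sub_right, Bf_smul_right, Bf_smul_right, hv₀u₀, hv₀v₀,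
        Bf_comm hG v₀ y]
      ring
    have hy : y = z + Bf G y v₀ • u₀ + Bf G y u₀ • v₀ := by
      rw [hz]
      abel
    have h3 := hA' z hz1 hz2
    have h4 : sact h σ y = sact h σ z + σ (Bf G y v₀) • sact h σ u₀ +
        σ (Bf G y u₀) • sact h σ v₀ := by
      conv_lhs => rw [hy]
      rw [sact_add, sact_add, sact_smul, sact_smul]
    rw [h4, h3, hμu, hμv, hσ, hσ, hμvu]
    conv_rhs => rw [hy]
    simp only [smul_add, smul_smul]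
    congr 2 <;> ring_nf
  have hh : (h : Mx) = μu • (1 : Mx) := by
    apply mx_ext_mulVec
    intro y
    rw [hall, Matrix.smul_mulVec, Matrix.one_mulVec]
  have hσ1 : σ = 1 := by
    ext c
    exact hσ c
  rw [hσ1, map_one, mul_one]
  exact cG_of_scalar h hh

end sym

end Cfsg.Agent.Lib.Helper43.PSLBal
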