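import Mathlib
import Cfsg.Agent.Lib.Helper43.PSLBal.GraphSym1

set_option autoImplicit false

/-!
# Graph-type involutions of symplectic and unitary type: transvections
-/

namespace Cfsg.Agent.Lib.Helper43.PSLBal

open Matrix Cfsg.Agent.Lib.Helper43.AutPSLn Cfsg.Agent.Lib.Helper43.FieldAut
  Cfsg.Agent.Lib.Helper43.AutSp4

variable {n : ℕ} {F : Type*} [Field F]

local notation "Mx" => Matrix (Fin n) (Fin n) F
local notation "SLn" => Matrix.SpecialLinearGroup (Fin n) F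
local notation "PSLn" => Matrix.ProjectiveSpecialLinearGroup (Fin n) F
local notation "GLn" => GL (Fin n) F

/-- The transvection `y ↦ y + c f(y,u) u`. -/
def Tmat (G : Matrix (Fin n) (Fin n) F) (τ : RingAut F) (u : Fin n → F) (c : F) :
    Matrix (Fin n) (Fin n) F :=
  1 + Matrix.vecMulVec (c • u) (G *ᵥ (τ ∘ u))

section tv

variable {G : Matrix (Fin n) (Fin n) F} {τ : RingAut F}

theorem Tmat_mulVec (u : Fin n → F) (c : F) (y : Fin n → F) :
    Tmat G τ u c *ᵥ y = y + (c * Sf G τ y u) • u := by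
  unfold Tmat Sf
  rw [Matrix.add_mulVec, Matrix.one_mulVec, Matrix.vecMulVec_mulVec, op_smul_eq_smul, smul_smul,
    dotProduct_comm, mul_comm]

theorem Tmat_det {u : Fin n → F} (c : F) (huu : Sf G τ u u = 0) : (Tmat G τ u c).det = 1 := by
  unfold Tmat
  apply det_one_add_vecMulVec
  rw [dotProduct_smul, dotProduct_comm]
  show c • Sf G τ u u = 0
  rw [huu, smul_zero]

theorem Tmat_zero (u : Fin n → F) : Tmat G τ u 0 = 1 := by
  unfold Tmat
  rw [zero_smul]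
  ext i j
  simp [Matrix.vecMulVec]

theorem Tmat_sf {ε : F} (hsym : (G.map τ)ᵀ = ε • G) (hτ2 : ∀ c, τ (τ c) = c) {u : Fin n → F}
    {c : F} (huu : Sf G τ u u = 0) (hc : c + ε * τ c = 0) (y z : Fin n → F) :
    Sf G τ (Tmat G τ u c *ᵥ y) (Tmat G τ u c *ᵥ z) = Sf G τ y z := by
  rw [Tmat_mulVec, Tmat_mulVec]
  simp only [Sf_add_left, Sf_add_right, Sf_smul_left, Sf_smul_right, huu, map_mul]
  rw [Sf_symm G τ hsym hτ2 u z]
  linear_combination (Sf G τ y u * Sf G τ u z) * hc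

theorem Tmat_iso {ε : F} (hsym : (G.map τ)ᵀ = ε • G) (hτ2 : ∀ c, τ (τ c) = c) {u : Fin n → F}
    {c : F} (huu : Sf G τ u u = 0) (hc : c + ε * τ c = 0) :
    (Tmat G τ u c)ᵀ * G * (Tmat G τ u c).map τ = G :=
  iso_of_sf G τ _ (Tmat_sf hsym hτ2 huu hc)

theorem Tmat_mul {u : Fin n → F} (c c' : F) (huu : Sf G τ u u = 0) :
    Tmat G τ u c * Tmat G τ u c' = Tmat G τ u (c + c') := by
  apply mx_ext_mulVec
  intro y
  rw [← Matrix.mulVec_mulVec, Tmat_mulVec, Tmat_mulVec, Tmat_mulVec]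
  simp only [Sf_add_left, Sf_smul_left, huu]
  ext i
  simp only [Pi.add_apply, Pi.smul_apply, smul_eq_mul]
  ring

theorem Tmat_pow {u : Fin n → F} (c : F) (huu : Sf G τ u u = 0) (k : ℕ) :
    Tmat G τ u c ^ k = Tmat G τ u ((k : F) * c) := by
  induction k with
  | zero => rw [pow_zero, Nat.cast_zero, zero_mul, Tmat_zero]
  | succ k ih =>
    rw [pow_succ, ih, Tmat_mul _ _ huu, Nat.cast_add, Nat.cast_one, add_mul, one_mul]

theorem Tmat_pow_char {u : Fin n → F} (c : F) (huu : Sf G τ u u = 0) (r : ℕ) [CharP F r] :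
    Tmat G τ u c ^ r = 1 := by
  rw [Tmat_pow c huu, CharP.cast_eq_zero, zero_mul, Tmat_zero]

theorem Tmat_conj {h : GLn} {σ : RingAut F} {ν : F} (hcomm : ∀ c, τ (σ c) = σ (τ c))
    (hν : ν ≠ 0) (hsemi : (h : Mx)ᵀ * G * (h : Mx).map τ = ν • G.map σ) (u : Fin n → F)
    (c : F) :
    (h : Mx) * (Tmat G τ u c).map σ * ((h⁻¹ : GLn) : Mx) =
      Tmat G τ (sact h σ u) (ν⁻¹ * σ c) := by
  apply mx_ext_mulVec
  intro v
  rw [← sact_sinv h σ v, conj_mulVec_sact', Tmat_mulVec, Tmat_mulVec, sact_add, sact_smul,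
    semi_sf G τ hcomm hsemi, map_mul]
  ext i
  simp only [Pi.add_apply, Pi.smul_apply, smul_eq_mul]
  field_simp

/-- The Weyl element built from two transvections. -/
theorem weyl_tv {u u' : Fin n → F} {c₁ c₂ : F} (huu : Sf G τ u u = 0)
    (hu'u' : Sf G τ u' u' = 0) (hab : (c₁ * Sf G τ u' u) * (c₂ * Sf G τ u u') = -1) :
    (Tmat G τ u c₁ * Tmat G τ u' c₂ * Tmat G τ u c₁) *ᵥ u = (c₂ * Sf G τ u u') • u' ∧
    (Tmat G τ u c₁ * Tmat G τ u' c₂ * Tmat G τ u c₁) *ᵥ u' = (c₁ * Sf G τ u' u) • u := by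
  constructor
  · rw [← Matrix.mulVec_mulVec, ← Matrix.mulVec_mulVec]
    simp only [Tmat_mulVec, Sf_add_left, Sf_smul_left, huu, hu'u']
    ext i
    simp only [Pi.add_apply, Pi.smul_apply, smul_eq_mul]
    linear_combination (u i) * hab
  · rw [← Matrix.mulVec_mulVec, ← Matrix.mulVec_mulVec]
    simp only [Tmat_mulVec, Sf_add_left, Sf_smul_left, huu, hu'u']
    ext i
    simp only [Pi.add_apply, Pi.smul_apply, smul_eq_mul]
    linear_combination (u' i + c₁ * Sf G τ u' u * u i) * hab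

/-- Non-degeneracy of the sesquilinear form. -/
theorem Sf_nondeg (hdet : G.det ≠ 0) {v : Fin n → F} (hv : v ≠ 0) : ∃ y, Sf G τ y v ≠ 0 := by
  have hv' : (τ ∘ v) ≠ 0 := by
    intro h0
    apply hv
    ext i
    have := congrFun h0 i
    simpa using this
  obtain ⟨y, hy⟩ := Bf_nondeg hdet hv'
  exact ⟨y, hy⟩

theorem Sf_sep (hdet : G.det ≠ 0) {u b : Fin n → F} (hb : b ≠ 0) (h : ∀ c : F, b ≠ c • u) :
    ∃ y, Sf G τ y u = 0 ∧ Sf G τ y b ≠ 0 := by
  have hinj : ∀ v : Fin n → F, G *ᵥ v = 0 → v = 0 := by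
    intro v h0
    have h2 : G⁻¹ *ᵥ (G *ᵥ v) = v := by
      rw [Matrix.mulVec_mulVec, Matrix.nonsing_inv_mul _ (isUnit_iff_ne_zero.mpr hdet),
        Matrix.one_mulVec]
    rw [← h2, h0, Matrix.mulVec_zero]
  have hb' : (τ ∘ b) ≠ 0 := by
    intro h0
    apply hb
    ext i
    have := congrFun h0 i
    simpa using this
  have h1 : G *ᵥ (τ ∘ b) ≠ 0 := fun h0 => hb' (hinj _ h0)
  have h2 : ¬ Par (G *ᵥ (τ ∘ u)) (G *ᵥ (τ ∘ b)) := by
    rintro ⟨c, -, hc⟩
    apply h (τ.symm c)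
    have h3 : G *ᵥ ((τ ∘ b) - c • (τ ∘ u)) = 0 := by
      rw [Matrix.mulVec_sub, Matrix.mulVec_smul, hc, sub_self]
    have h4 := sub_eq_zero.mp (hinj _ h3)
    ext i
    have h5 := congrFun h4 i
    simp only [Function.comp_apply, Pi.smul_apply, smul_eq_mul] at h5 ⊢
    apply τ.injective
    rw [h5, map_mul, RingEquiv.apply_symm_apply]
  obtain ⟨y, hy1, hy2⟩ := exists_sep h1 h2
  refine ⟨y, ?_, ?_⟩
  · unfold Sf
    rw [dotProduct_comm]
    exact hy1
  · unfold Sf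
    rw [dotProduct_comm]
    exact hy2

/-- The multiplier of a semi-similitude is fixed by `τ`. -/
theorem semi_fix {ε : F} (hsym : (G.map τ)ᵀ = ε • G) (hτ2 : ∀ c, τ (τ c) = c)
    (hε : ε = 1 ∨ ε = -1) {h : GLn} {σ : RingAut F} {ν : F} (hcomm : ∀ c, τ (σ c) = σ (τ c))
    (hsemi : (h : Mx)ᵀ * G * (h : Mx).map τ = ν • G.map σ) {y z : Fin n → F}
    (hyz : Sf G τ y z ≠ 0) : τ ν = ν := by
  have h1 := Sf_symm G τ hsym hτ2 (sact h σ y) (sact h σ z)
  rw [semi_sf G τ hcomm hsemi, semi_sf G τ hcomm hsemi, map_mul, hcomm,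
    Sf_symm G τ hsym hτ2 y z, map_mul] at h1
  have hσε : σ ε = ε := by
    rcases hε with rfl | rfl
    · exact map_one σ
    · rw [map_neg, map_one]
  have hε0 : ε ≠ 0 := by
    rcases hε with rfl | rfl
    · exact one_ne_zero
    · exact neg_ne_zero.mpr one_ne_zero
  rw [hσε] at h1
  have h3 : σ (Sf G τ y z) ≠ 0 := (map_ne_zero σ).mpr hyz
  apply mul_right_cancel₀ (mul_ne_zero hε0 h3)
  linear_combination h1

end tv

end Cfsg.Agent.Lib.Helper43.PSLBal
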