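import Mathlib
import Cfsg.Agent.Lib.Helper43.PSLBal.GraphTv1

set_option autoImplicit false

/-!
# Graph-type involutions of symplectic and unitary type: isotropic points are fixed
-/

namespace Cfsg.Agent.Lib.Helper43.PSLBal

open Matrix Cfsg.Agent.Lib.Helper43.AutPSLn Cfsg.Agent.Lib.Helper43.FieldAut
  Cfsg.Agent.Lib.Helper43.AutSp4

variable {n : ℕ} {F : Type*} [Field F]

local notation "Mx" => Matrix (Fin n) (Fin n) F
local notation "SLn" => Matrix.SpecialLinearGroup (Fin n) F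
local notation "PSLn" => Matrix.ProjectiveSpecialLinearGroup (Fin n) F
local notation "GLn" => GL (Fin n) F

/-- The hypotheses on an `ε`-hermitian form admitting transvections. -/
structure TvHyp (G : Matrix (Fin n) (Fin n) F) (τ : RingAut F) (ε c₀ : F) : Prop where
  sym : (G.map τ)ᵀ = ε • G
  tau2 : ∀ c, τ (τ c) = c
  comm : ∀ (σ : RingAut F) (c : F), τ (σ c) = σ (τ c)
  eps : ε = 1 ∨ ε = -1
  det : G.det ≠ 0
  c0 : c₀ ≠ 0
  adm : c₀ + ε * τ c₀ = 0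
  two : (2 : F) ≠ 0

section tv

variable {G : Matrix (Fin n) (Fin n) F} {τ : RingAut F} {ε c₀ : F}

theorem TvHyp.eps_ne (H : TvHyp G τ ε c₀) : ε ≠ 0 := by
  rcases H.eps with h | h
  · rw [h]
    exact one_ne_zero
  · rw [h]
    exact neg_ne_zero.mpr one_ne_zero

theorem TvHyp.eps_sq (H : TvHyp G τ ε c₀) : ε * ε = 1 := by
  rcases H.eps with h | h <;> rw [h] <;> ring

theorem TvHyp.map_eps (H : TvHyp G τ ε c₀) (σ : RingAut F) : σ ε = ε := by
  rcases H.eps with h | h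
  · rw [h]
    exact map_one σ
  · rw [h, map_neg, map_one]

/-- An element of the odd-order normal subgroup cannot move an isotropic point to a
non-perpendicular one. -/
theorem transv_np [Finite F] (hn : 2 ≤ n) (r : ℕ) [CharP F r] (hr : Odd r)
    (H : TvHyp G τ ε c₀) {D M : Subgroup (MulAut PSLn)} (hd : GData G τ D M) (h : GLn)
    (σ : RingAut F) (ha : (cG h * fG σ : MulAut PSLn) ∈ M) {u : Fin n → F} (hu : u ≠ 0)
    (huu : Sf G τ u u = 0) : Sf G τ u (sact h σ u) = 0 := by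
  by_contra hne
  obtain ⟨ν, hν, hsemi⟩ := hd.semi h σ ha
  obtain ⟨u', hu'def⟩ : ∃ u' : Fin n → F, u' = sact h σ u := ⟨_, rfl⟩
  rw [← hu'def] at hne
  have hu' : u' ≠ 0 := by rw [hu'def]; exact sact_ne_zero h σ hu
  have hu'u' : Sf G τ u' u' = 0 := by
    rw [hu'def, semi_sf G τ (H.comm σ) hsemi, huu, map_zero, mul_zero]
  have hind : ∀ c : F, u ≠ c • u' := by
    intro c hc
    apply hne
    rw [hc, Sf_smul_left, hu'u', mul_zero]
  have hτν : τ ν = ν := semi_fix H.sym H.tau2 H.eps (H.comm σ) hsemi hne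
  obtain ⟨p, hp⟩ : ∃ p : F, p = Sf G τ u u' := ⟨_, rfl⟩
  obtain ⟨p', hp'⟩ : ∃ p' : F, p' = Sf G τ u' u := ⟨_, rfl⟩
  have hτp' : τ p' = ε * p := by
    rw [hp', hp]
    exact Sf_symm G τ H.sym H.tau2 u u'
  have hτp : τ p = ε * p' := by
    rw [hp', hp]
    exact Sf_symm G τ H.sym H.tau2 u' u
  have hp0 : p ≠ 0 := by rw [hp]; exact hne
  have hp'0 : p' ≠ 0 := by
    intro h0
    rw [h0, map_zero] at hτp'
    exact hp0 ((mul_eq_zero.mp hτp'.symm).resolve_left H.eps_ne)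
  have hτc₀ : τ c₀ = -ε * c₀ := by
    have h1 := H.adm
    have h2 := H.eps_sq
    linear_combination ε * h1 - (τ c₀) * h2
  obtain ⟨c₂', hc₂'⟩ : ∃ c₂' : F, c₂' = -(c₀ * p' * p)⁻¹ := ⟨_, rfl⟩
  have hc₂'0 : c₂' ≠ 0 := by
    rw [hc₂']
    exact neg_ne_zero.mpr (inv_ne_zero (mul_ne_zero (mul_ne_zero H.c0 hp'0) hp0))
  have hadm' : c₂' + ε * τ c₂' = 0 := by
    rw [hc₂', map_neg, map_inv₀, map_mul, map_mul, hτp', hτp, hτc₀]
    have h2 := H.eps_sq
    have hε0 := H.eps_ne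
    have hc0 := H.c0
    field_simp
    linear_combination (-1 : F) * h2
  obtain ⟨c₂, hc₂⟩ : ∃ c₂ : F, c₂ = σ.symm (ν * c₂') := ⟨_, rfl⟩
  have hσc₂ : σ c₂ = ν * c₂' := by rw [hc₂, RingEquiv.apply_symm_apply]
  have hadm₂ : c₂ + ε * τ c₂ = 0 := by
    apply σ.injective
    rw [map_add, map_mul, map_zero, ← H.comm σ, hσc₂, map_mul, hτν, H.map_eps σ]
    linear_combination ν * hadm'
  obtain ⟨E₁, hE₁⟩ : ∃ E₁ : SLn, (E₁ : Mx) = Tmat G τ u c₀ := ⟨⟨_, Tmat_det c₀ huu⟩, rfl⟩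
  obtain ⟨E₂, hE₂⟩ : ∃ E₂ : SLn, (E₂ : Mx) = Tmat G τ u c₂ := ⟨⟨_, Tmat_det c₂ huu⟩, rfl⟩
  have hcomm : E₁ * E₂ = E₂ * E₁ := by
    apply Subtype.ext
    rw [Matrix.SpecialLinearGroup.coe_mul, Matrix.SpecialLinearGroup.coe_mul, hE₁, hE₂,
      Tmat_mul _ _ huu, Tmat_mul _ _ huu, add_comm]
  have h1r : E₁ ^ r = 1 := by
    apply Subtype.ext
    rw [Matrix.SpecialLinearGroup.coe_pow, Matrix.SpecialLinearGroup.coe_one, hE₁]
    exact Tmat_pow_char c₀ huu r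
  have h2r : E₂ ^ r = 1 := by
    apply Subtype.ext
    rw [Matrix.SpecialLinearGroup.coe_pow, Matrix.SpecialLinearGroup.coe_one, hE₂]
    exact Tmat_pow_char c₂ huu r
  have hρ : ((E₁ * glAut h (fAutN σ E₂) * E₁ : SLn) : Mx) =
      Tmat G τ u c₀ * Tmat G τ u' c₂' * Tmat G τ u c₀ := by
    rw [Matrix.SpecialLinearGroup.coe_mul, Matrix.SpecialLinearGroup.coe_mul, glAut_coe,
      fAutN_coe, hE₁, hE₂, Tmat_conj (H.comm σ) hν hsemi, hσc₂, ← mul_assoc, inv_mul_cancel₀ hν,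
      one_mul, hu'def]
  have hab : (c₀ * Sf G τ u' u) * (c₂' * Sf G τ u u') = -1 := by
    rw [← hp, ← hp', hc₂']
    have hc0 := H.c0
    field_simp
  have hw := weyl_tv (c₁ := c₀) (c₂ := c₂') huu hu'u' hab
  refine hd.weyl hn r hr h σ ha E₁ E₂ ?_ ?_ hcomm h1r h2r u u' hu' hind (c₀ * Sf G τ u' u)
    (c₂' * Sf G τ u u') ?_ ?_ ?_ ?_
  · rw [hE₁]
    exact Tmat_iso H.sym H.tau2 huu H.adm
  · rw [hE₂]
    exact Tmat_iso H.sym H.tau2 huu hadm₂
  · rw [← hp]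
    exact mul_ne_zero hc₂'0 hp0
  · rw [← hp']
    exact mul_ne_zero H.c0 hp'0
  · rw [hρ]
    exact hw.1
  · rw [hρ]
    exact hw.2

/-- Elements of the odd-order normal subgroup fix every isotropic point. -/
theorem transv_fix [Finite F] (hn : 2 ≤ n) (r : ℕ) [CharP F r] (hr : Odd r)
    (H : TvHyp G τ ε c₀) {D M : Subgroup (MulAut PSLn)} (hd : GData G τ D M) (h : GLn)
    (σ : RingAut F) (ha : (cG h * fG σ : MulAut PSLn) ∈ M) {u : Fin n → F} (hu : u ≠ 0)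
    (huu : Sf G τ u u = 0) : ∃ c : F, sact h σ u = c • u := by
  by_contra hne
  push Not at hne
  obtain ⟨ν, hν, hsemi⟩ := hd.semi h σ ha
  have hp : Sf G τ u (sact h σ u) = 0 := transv_np hn r hr H hd h σ ha hu huu
  obtain ⟨b, hbdef⟩ : ∃ b : Fin n → F, b = sinv h σ u := ⟨_, rfl⟩
  have hb : sact h σ b = u := by rw [hbdef, sact_sinv]
  have hb0 : b ≠ 0 := by
    rintro rfl
    rw [sact_zero] at hb
    exact hu hb.symm
  have hbb : Sf G τ b b = 0 := by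
    have e1 := semi_sf G τ (H.comm σ) hsemi b b
    rw [hb, huu] at e1
    exact (map_eq_zero σ).mp ((mul_eq_zero.mp e1.symm).resolve_left hν)
  have hbu : Sf G τ b u = 0 := by
    have e1 := semi_sf G τ (H.comm σ) hsemi b u
    rw [hb, hp] at e1
    exact (map_eq_zero σ).mp ((mul_eq_zero.mp e1.symm).resolve_left hν)
  have hbpar : ∀ c : F, b ≠ c • u := by
    intro c hc
    have hc0 : c ≠ 0 := by
      rintro rfl
      rw [zero_smul] at hc
      exact hb0 hc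
    have e := hb
    rw [hc, sact_smul] at e
    apply hne (σ c)⁻¹
    calc sact h σ u = (σ c)⁻¹ • (σ c • sact h σ u) := by
          rw [smul_smul, inv_mul_cancel₀ ((map_ne_zero σ).mpr hc0), one_smul]
      _ = (σ c)⁻¹ • u := by rw [e]
  obtain ⟨y, hy1, hy2⟩ := Sf_sep (τ := τ) H.det hb0 hbpar
  obtain ⟨y₁, hy₁⟩ : ∃ y₁ : Fin n → F, y₁ = (Sf G τ y b)⁻¹ • y := ⟨_, rfl⟩
  have h1 : Sf G τ y₁ b = 1 := by rw [hy₁, Sf_smul_left, inv_mul_cancel₀ hy2]
  have h1u : Sf G τ y₁ u = 0 := by rw [hy₁, Sf_smul_left, hy1, mul_zero]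
  have hεε := H.eps_sq
  have hε0 := H.eps_ne
  obtain ⟨t, ht⟩ : ∃ t : F, t = Sf G τ y₁ y₁ := ⟨_, rfl⟩
  have hτt : τ t = ε * t := by
    rw [ht]
    exact Sf_symm G τ H.sym H.tau2 y₁ y₁
  have hby : Sf G τ b y₁ = ε := by
    have e := Sf_symm G τ H.sym H.tau2 b y₁
    rw [h1, map_one] at e
    linear_combination (-ε) * e - (Sf G τ b y₁) * hεε
  obtain ⟨d, hd'⟩ : ∃ d : Fin n → F, d = y₁ + (-(ε * t) / 2) • b := ⟨_, rfl⟩
  have hdd : Sf G τ d d = 0 := by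
    rw [hd']
    simp only [Sf_add_left, Sf_add_right, Sf_smul_left, Sf_smul_right, h1, hby, hbb, ← ht,
      map_div₀, map_neg, map_mul, H.map_eps τ, hτt, map_ofNat]
    have h2 := H.two
    field_simp
    linear_combination (-4 * t) * hεε
  have hdu : Sf G τ d u = 0 := by
    rw [hd', Sf_add_left, Sf_smul_left, h1u, hbu, mul_zero, add_zero]
  have hdb : Sf G τ d b = 1 := by
    rw [hd', Sf_add_left, Sf_smul_left, h1, hbb, mul_zero, add_zero]
  have hud : Sf G τ u d = 0 := by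
    have e := Sf_symm G τ H.sym H.tau2 u d
    rw [hdu, map_zero] at e
    exact (mul_eq_zero.mp e.symm).resolve_left hε0
  have hbd : Sf G τ b d ≠ 0 := by
    have e := Sf_symm G τ H.sym H.tau2 b d
    rw [hdb, map_one] at e
    intro h0
    rw [h0, mul_zero] at e
    exact one_ne_zero e
  obtain ⟨E, hE⟩ : ∃ E : SLn, (E : Mx) = Tmat G τ d c₀ := ⟨⟨_, Tmat_det c₀ hdd⟩, rfl⟩
  have hEiso : (E : Mx)ᵀ * G * (E : Mx).map τ = G := by
    rw [hE]
    exact Tmat_iso H.sym H.tau2 hdd H.adm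
  have hEu : (E : Mx) *ᵥ u = u := by
    rw [hE, Tmat_mulVec, hud, mul_zero, zero_smul, add_zero]
  have hEinvu : ((E⁻¹ : SLn) : Mx) *ᵥ u = u := by
    conv_lhs => rw [← hEu]
    rw [Matrix.mulVec_mulVec, ← Matrix.SpecialLinearGroup.coe_mul, inv_mul_cancel,
      Matrix.SpecialLinearGroup.coe_one, Matrix.one_mulVec]
  obtain ⟨E', hE'⟩ : ∃ E' : SLn, E' = glAut h (fAutN σ E) := ⟨_, rfl⟩
  have hconjD : MulAut.conj (pmn E) ∈ D := hd.iso E hEiso
  have ha₂ : (cG (Matrix.SpecialLinearGroup.toGL (E' * E⁻¹)) * fG (1 : RingAut F) :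
      MulAut PSLn) ∈ M := by
    rw [map_one, mul_one, cG_toGL, map_mul, map_mul, map_inv, map_inv]
    have e2 : MulAut.conj (pmn E') =
        (cG h * fG σ) * MulAut.conj (pmn E) * (cG h * fG σ)⁻¹ := by
      rw [conj_aut, hE', MulAut.mul_apply, fG_pmn, cG_pmn]
    rw [e2]
    have e3 : (cG h * fG σ : MulAut PSLn) * MulAut.conj (pmn E) * (cG h * fG σ)⁻¹ *
        (MulAut.conj (pmn E))⁻¹ = (cG h * fG σ) * (MulAut.conj (pmn E) * (cG h * fG σ)⁻¹ *
          (MulAut.conj (pmn E))⁻¹) := by group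
    rw [e3]
    exact M.mul_mem ha (hd.norm _ hconjD _ (M.inv_mem ha))
  have hp₂ := transv_np hn r hr H hd _ _ ha₂ hu huu
  have hs : sact (Matrix.SpecialLinearGroup.toGL (E' * E⁻¹)) (1 : RingAut F) u =
      u + (σ (c₀ * Sf G τ b d)) • sact h σ d := by
    have e1 : sact (Matrix.SpecialLinearGroup.toGL (E' * E⁻¹)) (1 : RingAut F) u =
        ((E' * E⁻¹ : SLn) : Mx) *ᵥ u := rfl
    rw [e1, Matrix.SpecialLinearGroup.coe_mul, ← Matrix.mulVec_mulVec, hEinvu, hE']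
    conv_lhs => rw [← hb]
    rw [conj_mulVec_sact, hE, Tmat_mulVec, sact_add, sact_smul, hb]
  rw [hs, Sf_add_right, huu, zero_add, Sf_smul_right] at hp₂
  have e4 : Sf G τ u (sact h σ d) = ν * σ (Sf G τ b d) := by
    conv_lhs => rw [← hb]
    exact semi_sf G τ (H.comm σ) hsemi b d
  rw [e4] at hp₂
  have h5 : τ (σ (c₀ * Sf G τ b d)) ≠ 0 :=
    (map_ne_zero τ).mpr ((map_ne_zero σ).mpr (mul_ne_zero H.c0 hbd))
  exact (mul_ne_zero h5 (mul_ne_zero hν ((map_ne_zero σ).mpr hbd))) hp₂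

end tv

end Cfsg.Agent.Lib.Helper43.PSLBal
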