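import Mathlib
import Cfsg.Agent.Lib.Helper43.PSLBal.GraphTv2

set_option autoImplicit false

/-!
# Graph-type involutions of symplectic and unitary type: the odd-order normal subgroup is
trivial
-/

namespace Cfsg.Agent.Lib.Helper43.PSLBal

open Matrix Cfsg.Agent.Lib.Helper43.AutPSLn Cfsg.Agent.Lib.Helper43.FieldAut
  Cfsg.Agent.Lib.Helper43.AutSp4

variable {n : ℕ} {F : Type*} [Field F]

local notation "Mx" => Matrix (Fin n) (Fin n) F
local notation "SLn" => Matrix.SpecialLinearGroup (Fin n) F
local notation "PSLn" => Matrix.ProjectiveSpecialLinearGroup (Fin n) F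
local notation "GLn" => GL (Fin n) F

theorem sact_single (h : GLn) (σ : RingAut F) (i : Fin n) (c : F) :
    sact h σ (Pi.single i c) = fun k => (h : Mx) k i * σ c := by
  unfold sact
  rw [comp_single]
  ext k
  exact dotProduct_single _ _ _

/-- A semilinear map with diagonal matrix whose diagonal entries are related by the field
automorphism is a scalar, and the automorphism is trivial. -/
theorem scalar_of_diag (hn : 2 ≤ n) (h : GLn) (σ : RingAut F)
    (h1 : ∀ i k : Fin n, k ≠ i → (h : Mx) k i = 0)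
    (h2 : ∀ i j : Fin n, i ≠ j → ∀ a : F, σ a * (h : Mx) j j = (h : Mx) i i * a) :
    (cG h * fG σ : MulAut PSLn) = 1 := by
  obtain ⟨i₀, hi₀⟩ : ∃ i₀ : Fin n, i₀ = ⟨0, by omega⟩ := ⟨_, rfl⟩
  obtain ⟨i₁, hi₁⟩ : ∃ i₁ : Fin n, i₁ = ⟨1, by omega⟩ := ⟨_, rfl⟩
  have h01 : i₀ ≠ i₁ := by
    rw [hi₀, hi₁]
    intro h'
    have := congrArg Fin.val h'
    simp at this
  have hdiag : ∀ j : Fin n, (h : Mx) j j = (h : Mx) i₀ i₀ := by
    intro j
    by_cases hj : j = i₀
    · rw [hj]
    · have := h2 i₀ j (Ne.symm hj) 1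
      rw [map_one, one_mul, mul_one] at this
      exact this
  have hh : (h : Mx) = (h : Mx) i₀ i₀ • (1 : Mx) := by
    ext k i
    rw [Matrix.smul_apply, Matrix.one_apply, smul_eq_mul]
    by_cases hki : k = i
    · rw [if_pos hki, mul_one, hki, hdiag]
    · rw [if_neg hki, mul_zero, h1 i k hki]
  have hμ : (h : Mx) i₀ i₀ ≠ 0 := by
    intro h0
    rw [h0, zero_smul] at hh
    have h3 : (h : Mx) * ((h⁻¹ : GLn) : Mx) = 1 := Units.mul_inv h
    rw [hh, Matrix.zero_mul] at h3
    have h4 := congrFun (congrFun h3 i₀) i₀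
    rw [Matrix.zero_apply, Matrix.one_apply_eq] at h4
    exact zero_ne_one h4
  have hσ : σ = 1 := by
    ext a
    have := h2 i₀ i₁ h01 a
    rw [hdiag i₁, mul_comm] at this
    exact mul_left_cancel₀ hμ this
  rw [hσ, map_one, mul_one]
  exact cG_of_scalar h hh

/-- A semilinear map fixing every point induces the trivial automorphism. -/
theorem fix_all_points (hn : 2 ≤ n) (h : GLn) (σ : RingAut F)
    (hfix : ∀ u : Fin n → F, u ≠ 0 → ∃ c : F, sact h σ u = c • u) :
    (cG h * fG σ : MulAut PSLn) = 1 := by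
  have h1 : ∀ i k : Fin n, k ≠ i → (h : Mx) k i = 0 := by
    intro i k hki
    obtain ⟨c, hc⟩ := hfix (Pi.single i 1) (single_ne_zero' i)
    rw [sact_single] at hc
    have := congrFun hc k
    simp only [Pi.smul_apply, Pi.single_eq_of_ne hki, smul_zero, map_one, mul_one] at this
    exact this
  apply scalar_of_diag hn h σ h1
  intro i j hij a
  have hu : (Pi.single i 1 + Pi.single j a : Fin n → F) ≠ 0 := by
    intro h0
    have := congrFun h0 i
    rw [Pi.add_apply, Pi.single_eq_same, Pi.single_eq_of_ne hij, add_zero, Pi.zero_apply] at this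
    exact one_ne_zero this
  obtain ⟨c, hc⟩ := hfix _ hu
  rw [sact_add, sact_single, sact_single] at hc
  have e1 := congrFun hc i
  have e2 := congrFun hc j
  simp only [Pi.add_apply, Pi.smul_apply, Pi.single_eq_same, Pi.single_eq_of_ne hij,
    Pi.single_eq_of_ne (Ne.symm hij), smul_eq_mul, map_one, mul_one, add_zero, zero_add,
    h1 j i hij, h1 i j (Ne.symm hij), zero_mul] at e1 e2
  rw [← e1] at e2
  rw [mul_comm]
  exact e2

section alt

variable {G : Matrix (Fin n) (Fin n) F}

/-- For a graph-type involution of symplectic type, the odd-order normal subgroup is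
trivial. -/
theorem alt_trivial [Finite F] (hn : 3 ≤ n) (r : ℕ) [CharP F r] (hr : Odd r) (h2 : (2 : F) ≠ 0)
    (hG : Gᵀ = -G) (hdet : G.det ≠ 0) {D M : Subgroup (MulAut PSLn)}
    (hd : GData G (1 : RingAut F) D M) : ∀ a ∈ M, a = 1 := by
  intro a ha
  obtain ⟨h, σ, rfl⟩ := hd.form a ha
  have H : TvHyp G (1 : RingAut F) (-1) 1 :=
    { sym := by rw [map_one_aut, hG, neg_one_smul]
      tau2 := fun c => rfl
      comm := fun σ c => rfl
      eps := Or.inr rfl
      det := hdet
      c0 := one_ne_zero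
      adm := by
        rw [map_one]
        ring
      two := h2 }
  apply fix_all_points (by omega) h σ
  intro u hu
  have huu : Sf G (1 : RingAut F) u u = 0 := by
    have e : Sf G (1 : RingAut F) u u = -1 * Sf G (1 : RingAut F) u u :=
      Sf_symm G (1 : RingAut F) H.sym H.tau2 u u
    have h3 : (2 : F) * Sf G (1 : RingAut F) u u = 0 := by linear_combination e
    exact (mul_eq_zero.mp h3).resolve_left h2
  exact transv_fix (by omega) r hr H hd h σ ha hu huu

end alt

section herm

theorem Sf_one_single (τ : RingAut F) (i j : Fin n) (a b : F) :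
    Sf (1 : Mx) τ (Pi.single i a) (Pi.single j b) = if i = j then a * τ b else 0 := by
  unfold Sf
  rw [Matrix.one_mulVec, comp_single, single_dotProduct, Pi.single_apply]
  split_ifs <;> simp

theorem exists_third (hn : 3 ≤ n) (i k : Fin n) : ∃ j : Fin n, j ≠ i ∧ j ≠ k := by
  by_cases h0 : (i : ℕ) ≠ 0 ∧ (k : ℕ) ≠ 0
  · exact ⟨⟨0, by omega⟩, fun h => h0.1 (by rw [← h]), fun h => h0.2 (by rw [← h])⟩
  by_cases h1 : (i : ℕ) ≠ 1 ∧ (k : ℕ) ≠ 1
  · exact ⟨⟨1, by omega⟩, fun h => h1.1 (by rw [← h]), fun h => h1.2 (by rw [← h])⟩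
  refine ⟨⟨2, by omega⟩, fun h => ?_, fun h => ?_⟩
  · have h3 : (i : ℕ) = 2 := by rw [← h]
    omega
  · have h3 : (k : ℕ) = 2 := by rw [← h]
    omega

/-- For a graph-type involution of unitary type (in standard form), the odd-order normal
subgroup is trivial. -/
theorem herm_trivial [Finite F] (hn : 3 ≤ n) (r : ℕ) [CharP F r] (hr : Odd r) (h2 : (2 : F) ≠ 0)
    (τ : RingAut F) (hτ : τ ≠ 1) (hτ2 : τ * τ = 1)
    (hcomm : ∀ (σ : RingAut F) (c : F), τ (σ c) = σ (τ c)) {D M : Subgroup (MulAut PSLn)}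
    (hd : GData (1 : Mx) τ D M) : ∀ a ∈ M, a = 1 := by
  intro a ha
  obtain ⟨h, σ, rfl⟩ := hd.form a ha
  have hττ : ∀ c, τ (τ c) = c := fun c => DFunLike.congr_fun hτ2 c
  obtain ⟨t, ht⟩ : ∃ t : F, τ t ≠ t := by
    by_contra hall
    push Not at hall
    exact hτ (by ext c; exact hall c)
  have H : TvHyp (1 : Mx) τ 1 (t - τ t) :=
    { sym := by rw [Matrix.map_one τ (map_zero τ) (map_one τ), Matrix.transpose_one, one_smul]
      tau2 := hττ
      comm := hcomm
      eps := Or.inl rfl
      det := by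
        rw [Matrix.det_one]
        exact one_ne_zero
      c0 := fun h0 => ht (sub_eq_zero.mp h0).symm
      adm := by
        rw [map_sub, hττ]
        ring
      two := h2 }
  have hfix : ∀ u : Fin n → F, u ≠ 0 → Sf (1 : Mx) τ u u = 0 → ∃ c : F, sact h σ u = c • u :=
    fun u hu huu => transv_fix (by omega) r hr H hd h σ ha hu huu
  have hord : orderOf τ = 2 := orderOf_eq_prime (by rw [pow_two]; exact hτ2) hτ
  have hN : ∀ s : F, τ s = s → ∃ b : F, b * τ b = s := by
    intro s hs
    by_cases hs0 : s = 0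
    · exact ⟨0, by rw [hs0, zero_mul]⟩
    · obtain ⟨μ, -, hμ⟩ := exists_norm_eq τ hs0 hs
      rw [hord, Finset.prod_range_succ, Finset.prod_range_one, pow_zero, pow_one] at hμ
      exact ⟨μ, hμ⟩
  obtain ⟨ω, hω⟩ := hN (-1) (by rw [map_neg, map_one])
  have h1 : ∀ i k : Fin n, k ≠ i → (h : Mx) k i = 0 := by
    intro i k hki
    obtain ⟨j, hji, hjk⟩ := exists_third hn i k
    have key : ∀ a : F, a * τ a = -1 → (h : Mx) k i + (h : Mx) k j * σ a = 0 := by
      intro a ha'
      have hw0 : (Pi.single i 1 + Pi.single j a : Fin n → F) ≠ 0 := by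
        intro h0
        have := congrFun h0 i
        rw [Pi.add_apply, Pi.single_eq_same, Pi.single_eq_of_ne (Ne.symm hji), add_zero,
          Pi.zero_apply] at this
        exact one_ne_zero this
      have hww : Sf (1 : Mx) τ (Pi.single i 1 + Pi.single j a)
          (Pi.single i 1 + Pi.single j a) = 0 := by
        rw [Sf_add_left, Sf_add_right, Sf_add_right, Sf_one_single, Sf_one_single,
          Sf_one_single, Sf_one_single, if_pos rfl, if_neg (Ne.symm hji), if_neg hji,
          if_pos rfl, map_one, ha']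
        ring
      obtain ⟨c, hc⟩ := hfix _ hw0 hww
      rw [sact_add, sact_single, sact_single] at hc
      have e := congrFun hc k
      simp only [Pi.add_apply, Pi.smul_apply, Pi.single_eq_of_ne hki,
        Pi.single_eq_of_ne (Ne.symm hjk), add_zero, smul_zero, map_one, mul_one] at e
      exact e
    have e1 := key ω hω
    have e2 := key (-ω) (by rw [map_neg]; linear_combination hω)
    rw [map_neg] at e2
    have h3 : (2 : F) * (h : Mx) k i = 0 := by linear_combination e1 + e2
    exact (mul_eq_zero.mp h3).resolve_left h2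
  apply scalar_of_diag (by omega) h σ h1
  intro i j hij a
  obtain ⟨k, hki, hkj⟩ := exists_third hn i j
  obtain ⟨b, hb⟩ := hN (-1 - a * τ a) (by rw [map_sub, map_neg, map_one, map_mul, hττ]; ring)
  have hv0 : (Pi.single i 1 + Pi.single j a + Pi.single k b : Fin n → F) ≠ 0 := by
    intro h0
    have := congrFun h0 i
    rw [Pi.add_apply, Pi.add_apply, Pi.single_eq_same, Pi.single_eq_of_ne hij,
      Pi.single_eq_of_ne (Ne.symm hki), add_zero, add_zero, Pi.zero_apply] at this
    exact one_ne_zero this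
  have hvv : Sf (1 : Mx) τ (Pi.single i 1 + Pi.single j a + Pi.single k b)
      (Pi.single i 1 + Pi.single j a + Pi.single k b) = 0 := by
    simp only [Sf_add_left, Sf_add_right, Sf_one_single, hij, Ne.symm hij, hki, Ne.symm hki,
      hkj, Ne.symm hkj, if_false, if_true, map_one]
    linear_combination hb
  obtain ⟨c, hc⟩ := hfix _ hv0 hvv
  rw [sact_add, sact_add, sact_single, sact_single, sact_single] at hc
  have e1 := congrFun hc i
  have e2 := congrFun hc j
  simp only [Pi.add_apply, Pi.smul_apply, Pi.single_eq_same, Pi.single_eq_of_ne hij,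
    Pi.single_eq_of_ne (Ne.symm hij), Pi.single_eq_of_ne hki.symm, Pi.single_eq_of_ne hkj.symm,
    smul_eq_mul, map_one, mul_one, add_zero, zero_add, h1 j i hij, h1 i j (Ne.symm hij),
    h1 k i hki.symm, h1 k j hkj.symm, zero_mul] at e1 e2
  rw [e1, mul_comm]
  exact e2

end herm

end Cfsg.Agent.Lib.Helper43.PSLBal
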