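import Mathlib
import Cfsg.Agent.Lib.Helper43.PSLBal.GraphSym2
import Cfsg.Agent.Lib.Helper43.PSLBal.GraphTv3

set_option autoImplicit false

/-!
# Local balance for `PSL_n(q)`: graph-type involutions and the main theorem
-/

namespace Cfsg.Agent.Lib.Helper43.PSLBal

open Matrix Cfsg.Agent.Lib.Helper43.AutPSLn Cfsg.Agent.Lib.Helper43.FieldAut
  Cfsg.Agent.Lib.Helper43.AutSp4

variable {n : ℕ} {F : Type*} [Field F]

local notation "Mx" => Matrix (Fin n) (Fin n) F
local notation "SLn" => Matrix.SpecialLinearGroup (Fin n) F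
local notation "PSLn" => Matrix.ProjectiveSpecialLinearGroup (Fin n) F
local notation "GLn" => GL (Fin n) F

theorem map_mul_aut (τ : RingAut F) (A B : Mx) : (A * B).map τ = A.map τ * B.map τ := by
  ext i j
  simp [Matrix.mul_apply, map_sum]

theorem map_one_aut' (τ : RingAut F) : (1 : Mx).map τ = 1 :=
  Matrix.map_one τ (map_zero τ) (map_one τ)

/-- Isometries of the form `g^{-T}` give elements of `PSL_n` fixed by the graph-type
automorphism. -/
theorem graph_fix (g : GLn) (τ : RingAut F) (s : SLn)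
    (hs : (s : Mx)ᵀ * (glInvT g : Mx) * (s : Mx).map τ = (glInvT g : Mx)) :
    (cG g * fG τ * iG : MulAut PSLn) (pmn s) = pmn s := by
  rw [MulAut.mul_apply, MulAut.mul_apply, iG_pmn, fG_pmn, cG_pmn]
  congr 1
  apply Subtype.ext
  rw [glAut_coe, fAutN_coe, itAut_coe]
  have hS1 : (s : Mx) * ((s⁻¹ : SLn) : Mx) = 1 := by
    rw [← Matrix.SpecialLinearGroup.coe_mul, mul_inv_cancel, Matrix.SpecialLinearGroup.coe_one]
  have hG1 : (g : Mx) * ((g⁻¹ : GLn) : Mx) = 1 := Units.mul_inv g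
  have hG2 : ((g⁻¹ : GLn) : Mx) * (g : Mx) = 1 := Units.inv_mul g
  have ht : ((s : Mx).map τ)ᵀ * ((g⁻¹ : GLn) : Mx) * (s : Mx) = ((g⁻¹ : GLn) : Mx) := by
    have h1 := congrArg Matrix.transpose hs
    rw [glInvT_coe, Matrix.transpose_mul, Matrix.transpose_mul, Matrix.transpose_transpose,
      Matrix.transpose_transpose, ← Matrix.mul_assoc] at h1
    exact h1
  have hXS : (g : Mx) * ((s : Mx).map τ)ᵀ * ((g⁻¹ : GLn) : Mx) * (s : Mx) = 1 := by
    calc (g : Mx) * ((s : Mx).map τ)ᵀ * ((g⁻¹ : GLn) : Mx) * (s : Mx)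
        = (g : Mx) * (((s : Mx).map τ)ᵀ * ((g⁻¹ : GLn) : Mx) * (s : Mx)) := by
          simp only [Matrix.mul_assoc]
      _ = 1 := by rw [ht, hG1]
  have hmap : (((s⁻¹ : SLn) : Mx)ᵀ).map τ * ((s : Mx).map τ)ᵀ = 1 := by
    rw [← Matrix.transpose_map, ← map_mul_aut, ← Matrix.transpose_mul, hS1, Matrix.transpose_one,
      map_one_aut']
  have hYX : (g : Mx) * (((s⁻¹ : SLn) : Mx)ᵀ).map τ * ((g⁻¹ : GLn) : Mx) *
      ((g : Mx) * ((s : Mx).map τ)ᵀ * ((g⁻¹ : GLn) : Mx)) = 1 := by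
    calc (g : Mx) * (((s⁻¹ : SLn) : Mx)ᵀ).map τ * ((g⁻¹ : GLn) : Mx) *
          ((g : Mx) * ((s : Mx).map τ)ᵀ * ((g⁻¹ : GLn) : Mx))
        = (g : Mx) * ((((s⁻¹ : SLn) : Mx)ᵀ).map τ * ((((g⁻¹ : GLn) : Mx) * (g : Mx)) *
            ((s : Mx).map τ)ᵀ)) * ((g⁻¹ : GLn) : Mx) := by
          simp only [Matrix.mul_assoc]
      _ = 1 := by rw [hG2, Matrix.one_mul, hmap, Matrix.mul_one, hG1]
  calc (g : Mx) * (((s⁻¹ : SLn) : Mx)ᵀ).map τ * ((g⁻¹ : GLn) : Mx)
      = (g : Mx) * (((s⁻¹ : SLn) : Mx)ᵀ).map τ * ((g⁻¹ : GLn) : Mx) *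
          ((g : Mx) * ((s : Mx).map τ)ᵀ * ((g⁻¹ : GLn) : Mx) * (s : Mx)) := by
        rw [hXS, Matrix.mul_one]
    _ = (g : Mx) * (((s⁻¹ : SLn) : Mx)ᵀ).map τ * ((g⁻¹ : GLn) : Mx) *
          ((g : Mx) * ((s : Mx).map τ)ᵀ * ((g⁻¹ : GLn) : Mx)) * (s : Mx) := by
        simp only [Matrix.mul_assoc]
    _ = (s : Mx) := by rw [hYX, Matrix.one_mul]

section finite

variable [Fintype F] {p' f : ℕ} [Fact p'.Prime]

/-- An element `cG h * fG σ` commuting with a graph-type automorphism is a semi-similitude. -/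
theorem graph_semi (hF : Fintype.card F = p' ^ f) (hn : 2 ≤ n) (g : GLn) (τ : RingAut F)
    (h : GLn) (σ : RingAut F)
    (hcomm : (cG h * fG σ : MulAut PSLn) * (cG g * fG τ * iG) =
      (cG g * fG τ * iG) * (cG h * fG σ)) :
    ∃ ν : F, ν ≠ 0 ∧
      (h : Mx)ᵀ * (glInvT g : Mx) * (h : Mx).map τ = ν • (glInvT g : Mx).map σ := by
  have e1 : (cG h * fG σ : MulAut PSLn) * (cG g * fG τ * iG) =
      cG (h * Matrix.GeneralLinearGroup.map (σ : F →+* F) g) * fG (σ * τ) * iG := by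
    calc (cG h * fG σ : MulAut PSLn) * (cG g * fG τ * iG)
        = cG h * (fG σ * cG g) * fG τ * iG := by simp only [mul_assoc]
      _ = cG h * (cG (Matrix.GeneralLinearGroup.map (σ : F →+* F) g) * fG σ) * fG τ * iG := by
          rw [fG_cG]
      _ = _ := by
          rw [map_mul, map_mul]
          simp only [mul_assoc]
  have e2 : (cG g * fG τ * iG : MulAut PSLn) * (cG h * fG σ) =
      cG (g * Matrix.GeneralLinearGroup.map (τ : F →+* F) (glInvT h)) * fG (τ * σ) * iG := by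
    calc (cG g * fG τ * iG : MulAut PSLn) * (cG h * fG σ)
        = cG g * fG τ * (iG * cG h) * fG σ := by simp only [mul_assoc]
      _ = cG g * fG τ * (cG (glInvT h) * iG) * fG σ := by rw [iG_cG]
      _ = cG g * (fG τ * cG (glInvT h)) * (iG * fG σ) := by simp only [mul_assoc]
      _ = cG g * (cG (Matrix.GeneralLinearGroup.map (τ : F →+* F) (glInvT h)) * fG τ) *
            (fG σ * iG) := by rw [fG_cG, iG_fG]
      _ = _ := by
          rw [map_mul, map_mul]
          simp only [mul_assoc]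
  rw [e1, e2, ringAut_comm hF σ τ] at hcomm
  have e3 := mul_right_cancel (mul_right_cancel hcomm)
  have e4 : (cG ((g * Matrix.GeneralLinearGroup.map (τ : F →+* F) (glInvT h))⁻¹ *
      (h * Matrix.GeneralLinearGroup.map (σ : F →+* F) g)) : MulAut PSLn) = 1 := by
    rw [map_mul, map_inv, e3, inv_mul_cancel]
  obtain ⟨c, hc, hk⟩ := cG_eq_one hn _ e4
  refine ⟨c, hc, ?_⟩
  have hA : (h : Mx) * (g : Mx).map σ = c • ((g : Mx) * (((h⁻¹ : GLn) : Mx)ᵀ).map τ) := by
    have h1 : ((h * Matrix.GeneralLinearGroup.map (σ : F →+* F) g : GLn) : Mx) =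
        ((g * Matrix.GeneralLinearGroup.map (τ : F →+* F) (glInvT h) : GLn) : Mx) *
          (((g * Matrix.GeneralLinearGroup.map (τ : F →+* F) (glInvT h))⁻¹ *
            (h * Matrix.GeneralLinearGroup.map (σ : F →+* F) g) : GLn) : Mx) := by
      rw [← Units.val_mul, mul_inv_cancel_left]
    rw [hk, Matrix.mul_smul, Matrix.mul_one] at h1
    exact h1
  have hG1 : (g : Mx) * ((g⁻¹ : GLn) : Mx) = 1 := Units.mul_inv g
  have hG2 : ((g⁻¹ : GLn) : Mx) * (g : Mx) = 1 := Units.inv_mul g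
  have hH2 : ((h⁻¹ : GLn) : Mx) * (h : Mx) = 1 := Units.inv_mul h
  have hH : (h : Mx) = c • ((g : Mx) * (((h⁻¹ : GLn) : Mx)ᵀ).map τ *
      (((g⁻¹ : GLn) : Mx)).map σ) := by
    have h1 := congrArg (fun X => X * (((g⁻¹ : GLn) : Mx)).map σ) hA
    rw [Matrix.mul_assoc, ← map_mul_aut, hG1, map_one_aut', Matrix.mul_one, Matrix.smul_mul]
      at h1
    exact h1
  have hHt : (h : Mx)ᵀ = c • ((((g⁻¹ : GLn) : Mx)ᵀ).map σ * (((h⁻¹ : GLn) : Mx)).map τ *
      (g : Mx)ᵀ) := by
    conv_lhs => rw [hH]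
    rw [Matrix.transpose_smul, Matrix.transpose_mul, Matrix.transpose_mul,
      ← Matrix.transpose_map, ← Matrix.transpose_map, Matrix.transpose_transpose,
      ← Matrix.mul_assoc]
  rw [hHt, glInvT_coe, Matrix.smul_mul, Matrix.smul_mul]
  congr 1
  calc (((g⁻¹ : GLn) : Mx)ᵀ).map σ * (((h⁻¹ : GLn) : Mx)).map τ * (g : Mx)ᵀ *
        ((g⁻¹ : GLn) : Mx)ᵀ * (h : Mx).map τ
      = (((g⁻¹ : GLn) : Mx)ᵀ).map σ * ((((h⁻¹ : GLn) : Mx)).map τ *
          (((g : Mx)ᵀ * ((g⁻¹ : GLn) : Mx)ᵀ) * (h : Mx).map τ)) := by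
        simp only [Matrix.mul_assoc]
    _ = (((g⁻¹ : GLn) : Mx)ᵀ).map σ := by
        rw [← Matrix.transpose_mul, hG2, Matrix.transpose_one, Matrix.one_mul, ← map_mul_aut,
          hH2, map_one_aut', Matrix.mul_one]

/-- Elements of an odd-order subgroup are induced by semilinear maps. -/
theorem odd_form (hf : 1 ≤ f) (hF : Fintype.card F = p' ^ f) (hn : 3 ≤ n)
    (M : Subgroup (MulAut PSLn)) (hc : (Nat.card M).Coprime 2) (a : MulAut PSLn) (ha : a ∈ M) :
    ∃ (h : GLn) (σ : RingAut F), a = cG h * fG σ := by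
  haveI : Finite (MulAut PSLn) := finite_aut_psl
  obtain ⟨h, σ, e, hae⟩ := aut_decomp_all hf hF (by omega) a
  rcases zmod2_cases e with rfl | rfl
  · exact ⟨h, σ, by rw [hae, jG_zero, mul_one]⟩
  · exfalso
    have h1 := typeHom_eq hF hn (α := a) ⟨h, hae⟩
    have hN : Odd (Nat.card M) := Nat.coprime_two_right.mp hc
    obtain ⟨k, hk⟩ := hN
    have h2 : a ^ Nat.card M = 1 := by
      have h3 : (⟨a, ha⟩ : M) ^ Nat.card M = 1 := pow_card_eq_one'
      have h4 := congrArg Subtype.val h3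
      rwa [Subgroup.coe_pow, Subgroup.coe_one] at h4
    have h5 := congrArg (typeHom hF hn) h2
    rw [map_pow, map_one, h1, hk] at h5
    have h6 := congrArg Prod.snd h5
    have h7 : (Multiplicative.ofAdd (1 : ZMod 2)) ^ 2 = 1 := by decide
    simp only [Prod.pow_snd, Prod.snd_one] at h6
    rw [pow_succ, pow_mul, h7, one_pow, one_mul] at h6
    revert h6
    decide

/-- The abstract data for an odd-order normal subgroup of the centralizer of a graph-type
automorphism. -/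
theorem gdata_of_core (hf : 1 ≤ f) (hF : Fintype.card F = p' ^ f) (hn : 3 ≤ n)
    (𝒢 : Subgroup (MulAut PSLn)) (hinn : ∀ k : PSLn, MulAut.conj k ∈ 𝒢) (g : GLn)
    (τ : RingAut F) (M : Subgroup (MulAut PSLn))
    (hMD : M ≤ 𝒢 ⊓ Subgroup.centralizer {(cG g * fG τ * iG : MulAut PSLn)})
    (hnorm : ∀ d ∈ 𝒢 ⊓ Subgroup.centralizer {(cG g * fG τ * iG : MulAut PSLn)}, ∀ a ∈ M,
      d * a * d⁻¹ ∈ M)
    (hc : (Nat.card M).Coprime 2) :
    GData (glInvT g : Mx) τ (𝒢 ⊓ Subgroup.centralizer {(cG g * fG τ * iG : MulAut PSLn)}) M :=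
  { le := hMD
    norm := hnorm
    odd := hc
    iso := by
      intro s hs
      refine ⟨hinn _, ?_⟩
      show MulAut.conj (pmn s) ∈ Subgroup.centralizer {(cG g * fG τ * iG : MulAut PSLn)}
      rw [Subgroup.mem_centralizer_iff]
      intro y hy
      rw [Set.mem_singleton_iff] at hy
      subst hy
      have h1 := graph_fix g τ s hs
      have h2 := conj_aut (cG g * fG τ * iG : MulAut PSLn) (pmn s)
      rw [h1] at h2
      calc (cG g * fG τ * iG : MulAut PSLn) * MulAut.conj (pmn s)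
          = (cG g * fG τ * iG * MulAut.conj (pmn s) * (cG g * fG τ * iG)⁻¹) *
              (cG g * fG τ * iG) := by group
        _ = MulAut.conj (pmn s) * (cG g * fG τ * iG) := by rw [h2]
    form := fun a ha => odd_form hf hF hn M hc a ha
    semi := by
      intro h σ ha
      have h1 : (cG h * fG σ : MulAut PSLn) ∈
          Subgroup.centralizer {(cG g * fG τ * iG : MulAut PSLn)} := (hMD ha).2
      rw [Subgroup.mem_centralizer_iff] at h1
      exact graph_semi hF (by omega) g τ h σ (h1 _ rfl).symm }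

end finite

theorem no_core_of_trivial {D : Subgroup (MulAut PSLn)}
    (h : ∀ M : Subgroup (MulAut PSLn), M ≤ D → (∀ d ∈ D, ∀ a ∈ M, d * a * d⁻¹ ∈ M) →
      (Nat.card M).Coprime 2 → ∀ a ∈ M, a = 1) : ¬ HasCore 2 D := by
  rintro ⟨M, hMD, hnorm, hc, hne⟩
  apply hne
  rw [eq_bot_iff]
  intro a ha
  rw [Subgroup.mem_bot]
  exact h M hMD hnorm hc a ha

/-- The centralizer of a graph-type involution of `PSL_n(q)`, `q` odd, `n ≥ 3`, in an almost
simple group has no non-trivial normal subgroup of odd order. -/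
theorem graph_no_core [Fintype F] (hn : 3 ≤ n) (r : ℕ) [Fact r.Prime] [CharP F r] (hr2 : r ≠ 2)
    (𝒢 : Subgroup (MulAut PSLn)) (hinn : ∀ k : PSLn, MulAut.conj k ∈ 𝒢) (g : GLn)
    (σ : RingAut F) (hsq : (cG g * fG σ * iG : MulAut PSLn) ^ 2 = 1) :
    ¬ HasCore 2 (𝒢 ⊓ Subgroup.centralizer {(cG g * fG σ * iG : MulAut PSLn)}) := by
  obtain ⟨f, -, hF⟩ := FiniteField.card F r
  have hrodd : Odd r := (Fact.out : r.Prime).odd_of_ne_two hr2
  have h2 : (2 : F) ≠ 0 := by
    intro h0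
    have h1 : ((2 : ℕ) : F) = 0 := by exact_mod_cast h0
    rw [CharP.cast_eq_zero_iff F r] at h1
    have h3 := Nat.le_of_dvd (by norm_num) h1
    have h4 := (Fact.out : r.Prime).two_le
    omega
  have hσ2 : σ * σ = 1 := by
    have h1 := typeHom_eq hF hn (α := (cG g * fG σ * iG : MulAut PSLn)) (σ := σ) (e := 1)
      ⟨g, by rw [jG_one]⟩
    have h3 := congrArg (typeHom hF hn) hsq
    rw [map_pow, map_one, h1] at h3
    have h4 := congrArg Prod.fst h3
    simp only [Prod.pow_fst, Prod.fst_one] at h4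
    rw [← pow_two]
    exact h4
  have hsq' : (cG g * (fG σ * iG) : MulAut PSLn) ^ 2 = 1 := by
    rw [← mul_assoc]
    exact hsq
  by_cases hσ : σ = 1
  · subst hσ
    rw [sq_cG_fG_iG 1 (mul_one 1) g] at hsq'
    obtain ⟨μ, hμ, hk⟩ := cG_eq_one (by omega) _ hsq'
    have hk' : (g : Mx) * (glInvT g : Mx) = μ • (1 : Mx) := by
      rw [← hk]
      rfl
    have hG' : (glInvT g : Mx) = μ • (glInvT g : Mx)ᵀ := by
      have h3 := congrArg (fun X => ((g⁻¹ : GLn) : Mx) * X) hk'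
      rw [← Matrix.mul_assoc, Units.inv_mul, Matrix.one_mul, Matrix.mul_smul, Matrix.mul_one]
        at h3
      rw [glInvT_coe] at h3
      rw [glInvT_coe, Matrix.transpose_transpose]
      exact h3
    have hdet : (glInvT g : Mx).det ≠ 0 := by
      intro h0
      have h4 : (glInvT g : Mx) * (((glInvT g)⁻¹ : GLn) : Mx) = 1 := Units.mul_inv _
      have h5 := congrArg Matrix.det h4
      rw [Matrix.det_mul, h0, zero_mul, Matrix.det_one] at h5
      exact zero_ne_one h5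
    have h6 : (glInvT g : Mx)ᵀ = μ • (glInvT g : Mx) := by
      conv_lhs => rw [hG']
      rw [Matrix.transpose_smul, Matrix.transpose_transpose]
    have hμ2 : μ * μ = 1 := by
      have h7 : (glInvT g : Mx) = (μ * μ) • (glInvT g : Mx) := by
        conv_lhs => rw [hG', h6]
        rw [smul_smul]
      by_contra hne
      have h8 : (1 - μ * μ) • (glInvT g : Mx) = 0 := by
        rw [sub_smul, one_smul, ← h7, sub_self]
      have h9 : (glInvT g : Mx) = 0 := by
        rcases smul_eq_zero.mp h8 with h | h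
        · exact absurd (sub_eq_zero.mp h).symm hne
        · exact h
      apply hdet
      rw [h9]
      haveI : Nonempty (Fin n) := ⟨⟨0, by omega⟩⟩
      exact Matrix.det_zero
    have hμ' : μ = 1 ∨ μ = -1 := by
      have h10 : (μ - 1) * (μ + 1) = 0 := by linear_combination hμ2
      rcases mul_eq_zero.mp h10 with h | h
      · left
        linear_combination h
      · right
        linear_combination h
    apply no_core_of_trivial
    intro M hMD hnorm hc
    have hd := gdata_of_core f.pos hF hn 𝒢 hinn g 1 M hMD hnorm hc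
    rcases hμ' with h | h
    · rw [h, one_smul] at h6
      exact sym_trivial hn r hrodd h2 h6 hdet hd
    · rw [h, neg_one_smul] at h6
      exact alt_trivial hn r hrodd h2 h6 hdet hd
  · obtain ⟨k, hk⟩ := conj_of_sq_eq_one (by omega) σ hσ hσ2 g hsq'
    obtain ⟨e, he⟩ : ∃ e : MulAut PSLn ≃* MulAut PSLn, e = MulAut.conj (cG k : MulAut PSLn)⁻¹ :=
      ⟨_, rfl⟩
    have hex : e (cG g * fG σ * iG) = cG 1 * fG σ * iG := by
      rw [he, MulAut.conj_apply, mul_assoc (cG g), hk, map_one, one_mul]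
      group
    have hinn' : ∀ t : PSLn, MulAut.conj t ∈ 𝒢.map e.toMonoidHom := by
      intro t
      refine ⟨MulAut.conj (cG k t), hinn _, ?_⟩
      show e (MulAut.conj (cG k t)) = MulAut.conj t
      rw [he, MulAut.conj_apply, ← conj_aut]
      group
    rw [← hasCore_map_iff e, hex]
    apply no_core_of_trivial
    intro M hMD hnorm hc
    have hd := gdata_of_core f.pos hF hn (𝒢.map e.toMonoidHom) hinn' 1 σ M hMD hnorm hc
    have hone : (glInvT (1 : GLn) : Mx) = 1 := by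
      rw [glInvT_coe, inv_one, Units.val_one, Matrix.transpose_one]
    rw [hone] at hd
    exact herm_trivial hn r hrodd h2 σ hσ hσ2
      (fun ρ c => DFunLike.congr_fun (ringAut_comm hF σ ρ) c) hd

theorem zmod2_zero_ne_one : (0 : ZMod 2) ≠ 1 := by decide

/-- Local balance for `PSL_n(q)`: the criterion for non-inner-diagonal automorphisms of prime
order. -/
theorem balance_psl (F : Type*) [Field F] [Fintype F] (r : ℕ) [Fact r.Prime] [CharP F r]
    (n : ℕ) (hn : 2 ≤ n)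
    (𝒢 : Subgroup (MulAut (Matrix.ProjectiveSpecialLinearGroup (Fin n) F)))
    (hinn : ∀ k : Matrix.ProjectiveSpecialLinearGroup (Fin n) F, MulAut.conj k ∈ 𝒢)
    (p : ℕ) [Fact p.Prime] (hpr : p ≠ r)
    (β : MulAut (Matrix.ProjectiveSpecialLinearGroup (Fin n) F)) (hord : orderOf β = p)
    (hnot : ¬ Cfsg.IsInnerDiagonalAutPSL β) :
    Cfsg.pPrimeCore p ↥(𝒢 ⊓ Subgroup.centralizer {β}) ≠ ⊥ ↔
      ((∃ γ φ : MulAut (Matrix.ProjectiveSpecialLinearGroup (Fin n) F),
          Cfsg.IsInnerDiagonalAutPSL γ ∧ Cfsg.IsFieldAutPSL φ ∧ β = φ.trans γ) ∧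
        Nat.Coprime p (Nat.card ↥(MonoidHom.eqLocus β.toMonoidHom
          (MonoidHom.id (Matrix.ProjectiveSpecialLinearGroup (Fin n) F))))) := by
  obtain ⟨f, -, hF⟩ := FiniteField.card F r
  have key : ∀ (g : GL (Fin n) F) (σ : RingAut F), β = cG g * fG σ →
      (Cfsg.pPrimeCore p ↥(𝒢 ⊓ Subgroup.centralizer {β}) ≠ ⊥ ↔
      ((∃ γ φ : MulAut (Matrix.ProjectiveSpecialLinearGroup (Fin n) F),
          Cfsg.IsInnerDiagonalAutPSL γ ∧ Cfsg.IsFieldAutPSL φ ∧ β = φ.trans γ) ∧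
        Nat.Coprime p (Nat.card ↥(MonoidHom.eqLocus β.toMonoidHom
          (MonoidHom.id (Matrix.ProjectiveSpecialLinearGroup (Fin n) F)))))) := by
    intro g σ hβ
    have hσ1 : σ ≠ 1 := by
      rintro rfl
      apply hnot
      rw [Cfsg.Agent.Lib.Helper43.FieldAut.innerDiag_iff]
      exact ⟨g, by rw [hβ, map_one, mul_one]⟩
    have h1 := balance_field hn r Fact.out 𝒢 hinn p hpr β hord g σ hβ hσ1
    have h2 : ∃ γ φ : MulAut (Matrix.ProjectiveSpecialLinearGroup (Fin n) F),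
        Cfsg.IsInnerDiagonalAutPSL γ ∧ Cfsg.IsFieldAutPSL φ ∧ β = φ.trans γ :=
      ⟨cG g, fG σ, isInnerDiagonal_cG g, ⟨σ, isStdField_fG σ⟩, by rw [hβ]; rfl⟩
    rw [h1]
    exact ⟨fun h => ⟨h2, h⟩, fun h => h.2⟩
  rcases Nat.lt_or_ge n 3 with hn3 | hn3
  · obtain rfl : n = 2 := by omega
    obtain ⟨g, σ, hβ⟩ := aut_decomp_two f.pos hF β
    exact key g σ hβ
  · obtain ⟨g, σ, e, hβ⟩ := aut_decomp_all f.pos hF hn β
    rcases zmod2_cases e with rfl | rfl
    · rw [jG_zero, mul_one] at hβ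
      exact key g σ hβ
    · rw [jG_one] at hβ
      have hp2 : p = 2 := by
        have h1 := typeHom_eq hF hn3 (α := β) (σ := σ) (e := 1) ⟨g, by rw [jG_one]; exact hβ⟩
        have h2 : β ^ p = 1 := by
          rw [← hord]
          exact pow_orderOf_eq_one β
        have h3 := congrArg (typeHom hF hn3) h2
        rw [map_pow, map_one, h1] at h3
        have h4 := congrArg Prod.snd h3
        simp only [Prod.pow_snd, Prod.snd_one] at h4
        have h5 : orderOf (Multiplicative.ofAdd (1 : ZMod 2)) = 2 := by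
          apply orderOf_eq_prime <;> decide
        have h6 := orderOf_dvd_of_pow_eq_one h4
        rw [h5] at h6
        exact ((Nat.prime_dvd_prime_iff_eq Nat.prime_two Fact.out).mp h6).symm
      subst hp2
      have hr2 : r ≠ 2 := fun h => hpr h.symm
      have hsq : (cG g * fG σ * iG : MulAut (Matrix.ProjectiveSpecialLinearGroup (Fin n) F)) ^ 2
          = 1 := by
        rw [← hβ, ← hord]
        exact pow_orderOf_eq_one β
      have hL : ¬ Cfsg.pPrimeCore 2 ↥(𝒢 ⊓ Subgroup.centralizer {β}) ≠ ⊥ := by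
        rw [pPrimeCore_ne_bot_iff, hβ]
        exact fun h => graph_no_core hn3 r hr2 𝒢 hinn g σ hsq h
      have hR : ¬ ∃ γ φ : MulAut (Matrix.ProjectiveSpecialLinearGroup (Fin n) F),
          Cfsg.IsInnerDiagonalAutPSL γ ∧ Cfsg.IsFieldAutPSL φ ∧ β = φ.trans γ := by
        rintro ⟨γ, φ, hγ, ⟨ρ, hρ⟩, hβ'⟩
        rw [Cfsg.Agent.Lib.Helper43.FieldAut.innerDiag_iff] at hγ
        obtain ⟨g', rfl⟩ := hγ
        have hφ : φ = fG ρ := (Cfsg.Agent.Lib.Helper43.FieldAut.stdField_iff ρ φ).mp hρ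
        subst hφ
        have h1 : Tw3 β ρ 0 := ⟨g', by rw [jG_zero, mul_one]; exact hβ'⟩
        have h2 : Tw3 β σ 1 := ⟨g, by rw [jG_one]; exact hβ⟩
        have h3 := (tw3_unique hn3 h1 h2).2
        exact zmod2_zero_ne_one h3
      exact ⟨fun h => absurd h hL, fun h => absurd h.1 hR⟩

end Cfsg.Agent.Lib.Helper43.PSLBal
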